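import Cfsg.Agent.OD.Pre
import Cfsg.Agent.FT.Final
import Cfsg.Agent.S3066
/-! Rank witnesses for the known simple groups (used for the structure of C-components). -/
set_option autoImplicit false
open Subgroup Cfsg Function
namespace CfH3.QK
universe u v

/-- three independent commuting real elements of order `p` -/
def RT (p : ℕ) (K : Type u) [Group K] : Prop := ∃ x y z : K, x ^ p = 1 ∧ y ^ p = 1 ∧ z ^ p = 1 ∧
  x * y = y * x ∧ x * z = z * x ∧ y * z = z * y ∧ IsConj x x⁻¹ ∧ IsConj y y⁻¹ ∧ IsConj z z⁻¹ ∧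
  ∀ a b c : ℕ, x ^ a * y ^ b * z ^ c = 1 → p ∣ a ∧ p ∣ b ∧ p ∣ c

def Big (K : Type u) [Group K] : Prop := ∃ p : ℕ, p.Prime ∧ p ≠ 2 ∧ (RT p K ∨ PRankAtLeast p 4 K)

def NS (K : Type u) [Group K] : Prop := ¬ 64 ∣ Nat.card (Out K) ∨ ∀ k : ℕ, Odd k → 3 ≤ k →
  ∃ r : ℕ, r.Prime ∧ r ∣ (4 ^ k + 1) * (2 ^ k - 1) ∧ (¬ r ∣ Nat.card K ∨ PRankAtLeast r 2 K)

def Lst (K : Type u) [Group K] : Prop :=
  (∃ (F : Type) (_ : Field F) (_ : Fintype F), CharP F 2 ∧ Nonempty (K ≃* Matrix.ProjectiveSpecialLinearGroup (Fin 2) F)) ∨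
  Lie.IsoSuzuki K ∨
  (∃ (F : Type) (_ : Field F) (_ : Fintype F), (Fintype.card F).Prime ∧ Fintype.card F ≠ 2 ∧
    Nonempty (K ≃* Matrix.ProjectiveSpecialLinearGroup (Fin 2) F)) ∨ Spor.IsoJ1 K

def T (K : Type u) [Group K] : Prop := (3 ∣ Nat.card K ∨ Lie.IsoSuzuki K) ∧
  (Lst K ∨ ∃ p : ℕ, p.Prime ∧ p ≠ 2 ∧ PRankAtLeast p 2 K) ∧
  (Big K ∨ Group.IsSolvable (Out K) ∨ (PRankAtLeast 3 2 K ∧ NS K))

variable {K : Type u} [Group K] {L : Type v} [Group L] {p : ℕ}

theorem rank_map {n : ℕ} (f : K →* L) (hf : Injective f) (h : PRankAtLeast p n K) : PRankAtLeast p n L := by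
  obtain ⟨A, h1, h2, h3⟩ := h
  refine ⟨A.map f, ⟨⟨?_⟩⟩, ?_, ?_⟩
  · rintro ⟨_, a, ha, rfl⟩ ⟨_, b, hb, rfl⟩
    refine Subtype.ext ?_
    have := congrArg Subtype.val (h1.1.1 ⟨a, ha⟩ ⟨b, hb⟩)
    simp only [coe_mul] at this ⊢
    rw [← map_mul, this, map_mul]
  · rintro _ ⟨a, ha, rfl⟩
    rw [← map_pow, h2 a ha, map_one]
  · rwa [card_map_of_injective hf]

theorem rank_mono {m n : ℕ} (hp : 0 < p) (hmn : m ≤ n) (h : PRankAtLeast p n K) : PRankAtLeast p m K := by
  obtain ⟨A, h1, h2, h3⟩ := h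
  exact ⟨A, h1, h2, (Nat.pow_le_pow_right hp hmn).trans h3⟩

theorem RT.map (f : K →* L) (hf : Injective f) (h : RT p K) : RT p L := by
  obtain ⟨x, y, z, a1, a2, a3, b1, b2, b3, c1, c2, c3, d⟩ := h
  refine ⟨f x, f y, f z, by rw [← map_pow, a1, map_one], by rw [← map_pow, a2, map_one], by rw [← map_pow, a3, map_one],
    by rw [← map_mul, b1, map_mul], by rw [← map_mul, b2, map_mul], by rw [← map_mul, b3, map_mul],
    by rw [← map_inv]; exact f.map_isConj c1, by rw [← map_inv]; exact f.map_isConj c2,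
    by rw [← map_inv]; exact f.map_isConj c3, fun a b c e => d a b c (hf ?_)⟩
  simpa using e

/-- two commuting elements of order `p`, the second not a power of the first -/
theorem rank2_of [Finite K] (hp : p.Prime) {x y : K} (hx : x ^ p = 1) (hy : y ^ p = 1) (hx1 : x ≠ 1) (c : x * y = y * x)
    (n : y ∉ zpowers x) : PRankAtLeast p 2 K := by
  haveI : Fact p.Prime := ⟨hp⟩
  have hc : ∀ a ∈ ({x, y} : Set K), ∀ b ∈ ({x, y} : Set K), a * b = b * a := by
    rintro a (rfl | rfl) b (rfl | rfl) <;> first | rfl | exact c | exact c.symm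
  have hcm : IsMulCommutative (closure ({x, y} : Set K)) := by
    letI := closureCommGroupOfComm hc
    exact ⟨⟨mul_comm⟩⟩
  have he : ∀ a ∈ closure ({x, y} : Set K), a ^ p = 1 := by
    intro a ha
    induction ha using closure_induction with
    | mem a ha => rcases ha with rfl | rfl <;> assumption
    | one => exact one_pow _
    | mul a b ha hb h1 h2 =>
      have : Commute a b := congrArg Subtype.val (hcm.1.1 ⟨a, ha⟩ ⟨b, hb⟩)
      rw [this.mul_pow, h1, h2, one_mul]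
    | inv a _ h => rw [inv_pow, h, inv_one]
  refine ⟨_, hcm, he, ?_⟩
  have hP : IsPGroup p (closure ({x, y} : Set K)) := fun a => ⟨1, Subtype.ext (by simpa using he a a.2)⟩
  obtain ⟨k, hk⟩ := IsPGroup.iff_card.1 hP
  have lt : zpowers x < closure ({x, y} : Set K) :=
    lt_of_le_of_ne (zpowers_le.2 (subset_closure (by simp))) fun e => n (e ▸ subset_closure (by simp))
  have h1 : Nat.card (zpowers x) < Nat.card (closure ({x, y} : Set K)) :=
    Set.ncard_lt_ncard (s := (zpowers x : Set K)) (t := (closure ({x, y} : Set K) : Subgroup K)) (SetLike.coe_ssubset_coe.2 lt)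
  rw [Nat.card_zpowers, orderOf_eq_prime hx hx1, hk] at h1
  rw [hk]
  refine Nat.pow_le_pow_right hp.pos ?_
  by_contra h
  have : k ≤ 1 := by omega
  have := Nat.pow_le_pow_right hp.pos this
  rw [pow_one] at this
  omega

theorem RT.rank2 [Finite K] (hp : p.Prime) (h : RT p K) : PRankAtLeast p 2 K := by
  obtain ⟨x, y, z, a1, a2, a3, b1, b2, b3, c1, c2, c3, d⟩ := h
  refine rank2_of hp a1 a2 (fun e => ?_) b1 fun e => ?_
  · have := (d 1 0 0 (by simp [e])).1
    exact hp.one_lt.ne' (Nat.dvd_one.1 this)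
  · obtain ⟨n, hn⟩ := (mem_powers_iff_mem_zpowers).2 e
    have hn : x ^ n = y := hn
    have := (d n (p - 1) 0 (by rw [hn, pow_zero, mul_one, ← pow_succ', Nat.sub_add_cancel hp.pos, a2])).2.1
    have h2 := Nat.le_of_dvd (by have := hp.one_lt; omega) this
    have := hp.pos
    omega

theorem dvd_of_rank [Finite K] (hp : p.Prime) {n : ℕ} (hn : 1 ≤ n) (h : PRankAtLeast p n K) : p ∣ Nat.card K := by
  haveI : Fact p.Prime := ⟨hp⟩
  obtain ⟨A, -, h2, h3⟩ := h
  have : A ≠ ⊥ := by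
    rintro rfl
    rw [card_bot] at h3
    exact absurd h3 (not_le.2 (Nat.one_lt_pow (by omega) hp.one_lt))
  obtain ⟨⟨a, ha⟩, h1⟩ := (ne_bot_iff_exists_ne_one).1 this
  have : orderOf a = p := orderOf_eq_prime (h2 a ha) fun e => h1 (Subtype.ext e)
  exact this ▸ orderOf_dvd_natCard a

/-- real triple criterion -/
theorem rt_of (hp : p.Prime) (h2 : p ≠ 2) {x y z s t w : K} (a1 : x ^ p = 1) (a2 : y ^ p = 1) (a3 : z ^ p = 1)
    (n1 : x ≠ 1) (n2 : y ≠ 1) (n3 : z ≠ 1) (b1 : x * y = y * x) (b2 : x * z = z * x) (b3 : y * z = z * y)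
    (sx : s * x * s⁻¹ = x⁻¹) (sz : s * z * s⁻¹ = z) (ty : t * y * t⁻¹ = y⁻¹) (tx : t * x * t⁻¹ = x)
    (tz : t * z * t⁻¹ = z) (wz : w * z * w⁻¹ = z⁻¹) : RT p K := by
  haveI : Fact p.Prime := ⟨hp⟩
  have key : ∀ {g : K} {a : ℕ}, g ^ p = 1 → g ≠ 1 → (g ^ a)⁻¹ = g ^ a → p ∣ a := by
    intro g a h1 hn e
    have : g ^ (2 * a) = 1 := by rw [two_mul, pow_add]; nth_rw 1 [← e]; exact inv_mul_cancel _
    have := orderOf_dvd_of_pow_eq_one this
    rw [orderOf_eq_prime h1 hn] at this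
    exact ((Nat.Prime.dvd_mul hp).1 this).resolve_left fun h => h2 ((Nat.prime_dvd_prime_iff_eq hp Nat.prime_two).1 h)
  have cj : ∀ (g a : K) (n : ℕ), g * a ^ n * g⁻¹ = (g * a * g⁻¹) ^ n := fun g a n => (conj_pow).symm
  refine ⟨x, y, z, a1, a2, a3, b1, b2, b3, isConj_iff.2 ⟨s, sx⟩, isConj_iff.2 ⟨t, ty⟩, isConj_iff.2 ⟨w, wz⟩, fun a b c e => ?_⟩
  have hb : p ∣ b := by
    refine key a2 n2 ?_
    have e2 : x ^ a * (y ^ b)⁻¹ * z ^ c = 1 := by
      have := congrArg (fun g => t * g * t⁻¹) e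
      simp only [mul_one, mul_inv_cancel] at this
      rw [← this, ← inv_pow, ← ty, ← cj]
      conv_lhs => rw [← tx, ← tz, ← cj, ← cj]
      group
    exact mul_left_cancel (mul_right_cancel (e2.trans e.symm))
  have yb : y ^ b = 1 := by obtain ⟨k, rfl⟩ := hb; rw [pow_mul, a2, one_pow]
  rw [yb, mul_one] at e
  have ha : p ∣ a := by
    refine key a1 n1 ?_
    have e2 : (x ^ a)⁻¹ * z ^ c = 1 := by
      have := congrArg (fun g => s * g * s⁻¹) e
      simp only [mul_one, mul_inv_cancel] at this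
      rw [← this, ← inv_pow, ← sx, ← cj]
      conv_lhs => rw [← sz, ← cj]
      group
    exact mul_right_cancel (e2.trans e.symm)
  have xa : x ^ a = 1 := by obtain ⟨k, rfl⟩ := ha; rw [pow_mul, a1, one_pow]
  rw [xa, one_mul] at e
  exact ⟨ha, hb, by have := orderOf_dvd_of_pow_eq_one e; rwa [orderOf_eq_prime a3 n3] at this⟩

theorem T.of_big [Finite K] (h3 : 3 ∣ Nat.card K) (h : Big K) : T K := by
  refine ⟨.inl h3, .inr ?_, .inl h⟩
  obtain ⟨p, hp, h2, h | h⟩ := h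
  · exact ⟨p, hp, h2, h.rank2 hp⟩
  · exact ⟨p, hp, h2, rank_mono hp.pos (by omega) h⟩

theorem T.of_rt3 [Finite K] (h : RT 3 K) : T K :=
  T.of_big (dvd_of_rank Nat.prime_three (by omega) (h.rank2 Nat.prime_three)) ⟨3, Nat.prime_three, by omega, .inl h⟩

theorem T.of_c [Finite K] (h : PRankAtLeast 3 2 K) (n : NS K) : T K :=
  ⟨.inl (dvd_of_rank Nat.prime_three (by omega) h), .inr ⟨3, Nat.prime_three, by omega, h⟩, .inr (.inr ⟨h, n⟩)⟩

theorem five_dvd {k : ℕ} (hk : Odd k) : 5 ∣ 4 ^ k + 1 := by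
  obtain ⟨m, rfl⟩ := hk
  have : 4 ^ (2 * m + 1) % 5 = 4 := by rw [pow_succ, pow_mul, Nat.mul_mod, Nat.pow_mod]; simp
  generalize 4 ^ (2 * m + 1) = a at this
  omega

theorem NS.of_five (h : ¬ 5 ∣ Nat.card K ∨ PRankAtLeast 5 2 K) : NS K :=
  .inr fun _ hk _ => ⟨5, Nat.prime_five, (five_dvd hk).mul_right _, h⟩

/-- the automorphism groups of isomorphic groups -/
noncomputable def outEquiv (e : K ≃* L) : Out K ≃* Out L :=
  QuotientGroup.congr (Inn K) (Inn L) (MulAut.congr e) (by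
    ext g
    constructor
    · rintro ⟨_, ⟨a, rfl⟩, rfl⟩
      exact ⟨e a, by ext x; simp [MulAut.congr]⟩
    · rintro ⟨a, rfl⟩
      exact ⟨MulAut.conj (e.symm a), ⟨_, rfl⟩, by ext x; simp [MulAut.congr]⟩)

theorem T.equiv (e : K ≃* L) (h : T L) : T K := by
  have c : Nat.card K = Nat.card L := Nat.card_congr e.toEquiv
  have r : ∀ {q n : ℕ}, PRankAtLeast q n L → PRankAtLeast q n K := fun h => rank_map e.symm.toMonoidHom e.symm.injective h
  have sz : Lie.IsoSuzuki L → Lie.IsoSuzuki K := fun ⟨F, a, b, m, h1, h2, ⟨f⟩⟩ => ⟨F, a, b, m, h1, h2, ⟨e.trans f⟩⟩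
  obtain ⟨h1, h2, h3⟩ := h
  refine ⟨h1.imp (fun h => c ▸ h) sz, h2.imp ?_ fun ⟨q, a, b, d⟩ => ⟨q, a, b, r d⟩, h3.imp ?_ (Or.imp ?_ ?_)⟩
  · rintro (⟨F, a, b, d, ⟨f⟩⟩ | h | ⟨F, a, b, d, d', ⟨f⟩⟩ | ⟨⟨f⟩⟩)
    · exact .inl ⟨F, a, b, d, ⟨e.trans f⟩⟩
    · exact .inr (.inl (sz h))
    · exact .inr (.inr (.inl ⟨F, a, b, d, d', ⟨e.trans f⟩⟩))
    · exact .inr (.inr (.inr ⟨e.trans f⟩))
  · rintro ⟨q, a, b, d⟩
    exact ⟨q, a, b, d.imp (RT.map e.symm.toMonoidHom e.symm.injective) r⟩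
  · intro h
    exact Group.isSolvable_of_isSolvable_injective (f := (outEquiv e).toMonoidHom) (outEquiv e).injective
  · rintro ⟨a, b⟩
    refine ⟨r a, b.imp (fun h => by rwa [Nat.card_congr (outEquiv e).toEquiv]) fun h k k1 k2 => ?_⟩
    obtain ⟨s, s1, s2, s3⟩ := h k k1 k2
    exact ⟨s, s1, s2, s3.imp (fun h => c ▸ h) r⟩

theorem card_aut [Finite K] [IsSimpleGroup K] (hK : ¬ IsMulCommutative K) :
    Nat.card (MulAut K) = Nat.card (Out K) * Nat.card K := by
  have hz : center K = ⊥ := (IsSimpleGroup.eq_bot_or_eq_top_of_normal (center K) inferInstance).resolve_right fun h =>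
    hK ⟨⟨fun a b => (mem_center_iff.1 (h ▸ mem_top b : b ∈ center K) a)⟩⟩
  have inj : Injective (MulAut.conj : K →* MulAut K) := by
    refine (injective_iff_map_eq_one _).2 fun a ha => ?_
    have : a ∈ center K := mem_center_iff.2 fun g => by
      have := congrArg (fun f : MulAut K => f g) ha
      simp only [MulAut.conj_apply, MulAut.one_apply] at this
      rw [mul_inv_eq_iff_eq_mul] at this
      exact this.symm
    rwa [hz, mem_bot] at this
  rw [card_eq_card_quotient_mul_card_subgroup (Inn K), Nat.card_congr (MonoidHom.ofInjective inj).toEquiv.symm]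

theorem exists_prime_4k {k : ℕ} (hk : Odd k) (h3 : 3 ≤ k) : ∃ r : ℕ, r.Prime ∧ r ∣ 4 ^ k + 1 ∧ r ≠ 5 := by
  by_contra h
  push Not at h
  have e := Nat.eq_prime_pow_of_unique_prime_dvd (n := 4 ^ k + 1) (p := 5) (by positivity) fun hd hd' => h _ hd hd'
  generalize (Nat.primeFactorsList (4 ^ k + 1)).length = a at e
  obtain ⟨j, rfl⟩ : ∃ j, k = j + 2 := ⟨k - 2, by omega⟩
  have m3 : 4 ^ (j + 2) % 3 = 1 := by rw [Nat.pow_mod]; simp
  have m8 : 4 ^ (j + 2) % 8 = 0 := by rw [pow_add]; omega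
  rcases Nat.even_or_odd' a with ⟨b, rfl | rfl⟩
  · have : 5 ^ (2 * b) % 3 = 1 := by rw [pow_mul, Nat.pow_mod]; simp
    generalize 4 ^ (j + 2) = u at *
    generalize 5 ^ (2 * b) = w at *
    omega
  · have : 5 ^ (2 * b + 1) % 8 = 5 := by rw [pow_succ, pow_mul, Nat.mul_mod, Nat.pow_mod]; simp
    generalize 4 ^ (j + 2) = u at *
    generalize 5 ^ (2 * b + 1) = w at *
    omega

theorem per_aux (r P : ℕ) (hP : 4 ^ P % r = 1 % r) (k : ℕ) : 4 ^ k % r = 4 ^ (k % P) % r := by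
  conv_lhs => rw [← Nat.div_add_mod k P, pow_add, pow_mul]
  have : (4 ^ P) ^ (k / P) ≡ 1 ^ (k / P) [MOD r] := Nat.ModEq.pow _ hP
  rw [one_pow] at this
  have := this.mul_right (4 ^ (k % P))
  rwa [one_mul] at this

/-- the prime condition: all primes dividing the order lie in a fixed list -/
theorem NS.of_primes (h : ∀ r : ℕ, r.Prime → r ∣ Nat.card K → r ∈ [2, 3, 5, 7, 11, 17, 19, 23, 29, 31, 37, 43, 67]) : NS K := by
  refine .inr fun k hk h3 => ?_
  obtain ⟨r, hr, hd, h5⟩ := exists_prime_4k hk h3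
  by_cases hm : r ∣ Nat.card K
  swap
  · exact ⟨r, hr, hd.mul_right _, .inl hm⟩
  have hm := h r hr hm
  have ko : k % 2 = 1 := Nat.odd_iff.1 hk
  have big : ∀ s d : ℕ, s.Prime → s ∉ [2, 3, 5, 7, 11, 17, 19, 23, 29, 31, 37, 43, 67] → s ∣ 2 ^ d - 1 → d ∣ k →
      ∃ r : ℕ, r.Prime ∧ r ∣ (4 ^ k + 1) * (2 ^ k - 1) ∧ (¬ r ∣ Nat.card K ∨ PRankAtLeast r 2 K) := by
    rintro s d s1 s2 s3 ⟨c, rfl⟩
    refine ⟨s, s1, Dvd.dvd.mul_left (s3.trans ?_) _, .inl fun e => s2 (h s s1 e)⟩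
    rw [pow_mul]
    simpa using Nat.sub_dvd_pow_sub_pow (2 ^ d) 1 c
  have hd' : (4 ^ k % r + 1) % r = 0 := by rw [Nat.mod_add_mod]; exact Nat.mod_eq_zero_of_dvd hd
  have per : ∀ P, 0 < P → 4 ^ P % r = 1 % r → ∃ j < P, j = k % P ∧ (4 ^ j % r + 1) % r = 0 := fun P h0 hP =>
    ⟨_, Nat.mod_lt _ h0, rfl, by rwa [← per_aux r P hP k]⟩
  simp only [List.mem_cons, List.not_mem_nil, or_false] at hm
  rcases hm with rfl | rfl | rfl | rfl | rfl | rfl | rfl | rfl | rfl | rfl | rfl | rfl | rfl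
  · exfalso
    obtain ⟨j, rfl⟩ : ∃ j, k = j + 1 := ⟨k - 1, by omega⟩
    rw [pow_succ] at hd
    omega
  · obtain ⟨j, j1, j2, j3⟩ := per 1 (by omega) (by norm_num); interval_cases j <;> simp at j3
  · exact absurd rfl h5
  · obtain ⟨j, j1, j2, j3⟩ := per 3 (by omega) (by norm_num); interval_cases j <;> simp at j3
  · obtain ⟨j, j1, j2, j3⟩ := per 5 (by omega) (by norm_num); interval_cases j <;> simp at j3
  · obtain ⟨j, j1, j2, j3⟩ := per 4 (by omega) (by norm_num); interval_cases j <;> first | (simp at j3; done) | omega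
  · obtain ⟨j, j1, j2, j3⟩ := per 9 (by omega) (by norm_num); interval_cases j <;> simp at j3
  · obtain ⟨j, j1, j2, j3⟩ := per 11 (by omega) (by norm_num); interval_cases j <;> simp at j3
  · obtain ⟨j, j1, j2, j3⟩ := per 14 (by omega) (by norm_num)
    refine big 127 7 (by norm_num) (by decide) (by norm_num) ?_
    interval_cases j <;> first | (simp at j3; done) | omega
  · obtain ⟨j, j1, j2, j3⟩ := per 5 (by omega) (by norm_num); interval_cases j <;> simp at j3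
  · obtain ⟨j, j1, j2, j3⟩ := per 18 (by omega) (by norm_num)
    refine big 73 9 (by norm_num) (by decide) (by norm_num) ?_
    interval_cases j <;> first | (simp at j3; done) | omega
  · obtain ⟨j, j1, j2, j3⟩ := per 7 (by omega) (by norm_num); interval_cases j <;> simp at j3
  · obtain ⟨j, j1, j2, j3⟩ := per 33 (by omega) (by norm_num); interval_cases j <;> simp at j3

/-- a finite group whose order is not divisible by four is solvable -/
theorem solv_of_not_four [Finite K] (h : ¬ 4 ∣ Nat.card K) : Group.IsSolvable K := by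
  rcases Nat.even_or_odd (Nat.card K) with h2 | h2
  swap
  · exact CfFT.solvable_of_odd h2
  have hm : (Nat.card K).minFac = 2 := Nat.minFac_eq_two_iff _ |>.2 h2.two_dvd
  obtain ⟨P⟩ : Nonempty (Sylow 2 K) := inferInstance
  have hP : Nat.card P = 2 := by
    obtain ⟨n, hn⟩ := IsPGroup.iff_card.1 P.isPGroup'
    have d1 : 2 ^ n ∣ Nat.card K := hn ▸ card_subgroup_dvd_card (P : Subgroup K)
    have d2 : ¬ 2 ∣ (P : Subgroup K).index := P.not_dvd_index
    have e := (P : Subgroup K).card_mul_index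
    rcases n with _ | _ | n
    · rw [hn, pow_zero, one_mul] at e
      exact absurd (e ▸ h2.two_dvd) d2
    · exact hn
    · exact absurd (Dvd.dvd.trans ⟨2 ^ n, by ring⟩ d1) h
  have hc : IsCyclic P := isCyclic_of_prime_card (p := 2) hP
  have cpl := hc.isComplement' hm
  set f := MonoidHom.transferSylow P (hc.normalizer_le_centralizer hm)
  have ho : Odd (Nat.card f.ker) := by
    rw [← cpl.index_eq_card]
    exact Nat.odd_iff.2 (Nat.two_dvd_ne_zero.1 P.not_dvd_index)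
  haveI := CfFT.solvable_of_odd ho
  haveI : Group.IsSolvable P := by
    letI := hc.commGroup
    infer_instance
  exact Group.isSolvable_of_ker_le_range f.ker.subtype f (by simp)

end CfH3.QK
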