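import Cfsg.Agent.H3.QK0
import Cfsg.Agent.H3.PSL2Max
import Cfsg.Agent.H5.Burnside
import Cfsg.Agent.FT.BG4d
/-! Perfect groups acting on `p`-groups of rank at most two. -/
set_option autoImplicit false
set_option linter.unusedSectionVars false
open Subgroup Cfsg Function CfH9 CfH7 CfH8 CfH1 CfFT Matrix
open scoped commutatorElement MatrixGroups
namespace CfH3.QK
universe u v

theorem solv23 {H : Type*} [Group H] [Finite H] (h : Nat.card H ∣ 24) : Group.IsSolvable H := by
  refine CfH5.burnside_of_prime_dvd (p := 2) (q := 3) fun r hr hr' => ?_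
  have h1 := hr'.trans h
  have h2 := Nat.le_of_dvd (by norm_num) h1
  interval_cases r <;> first | omega | exact absurd hr (by norm_num)

theorem psl_perfect {p : ℕ} [hp : Fact p.Prime] (h2 : p ≠ 2) (H : Subgroup PSL(2, ZMod p)) (hH : ⁅H, H⁆ = H) (hne : H ≠ ⊥) :
    IsSimpleGroup H ∧ 3 ∣ Nat.card H ∧ p ≠ 3 := by
  classical
  have ns : ¬ Group.IsSolvable H := fun h => hne (eq_bot_of_perfect_of_isSolvable hH h)
  have eq : ∀ {L : Type} [Group L], Nonempty (H ≃* L) → Group.IsSolvable L → False := fun ⟨e⟩ h =>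
    ns (Group.isSolvable_of_isSolvable_injective (f := e.toMonoidHom) e.injective)
  have odd : Odd p := hp.out.odd_of_ne_two h2
  have cP := CfH3.card_PSL2 (ZMod.card p)
  rw [CfH3.gcd_two_of_odd odd] at cP
  have h3 : p ≠ 3 := by
    rintro rfl
    refine ns (solv23 ((card_subgroup_dvd_card H).trans ?_))
    have : Nat.card PSL(2, ZMod 3) = 12 := by omega
    rw [this]; norm_num
  have h4 : 4 ≤ p := by have := hp.out.two_le; omega
  rcases CfH3.dickson_psl (ZMod.card p) p H with ⟨k, -, ⟨h, -⟩ | h⟩ | ⟨-, x, hx⟩ | h | h | ⟨⟨e⟩⟩ | ⟨E, h⟩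
  · exact absurd (by letI := h.commGroup; infer_instance) ns
  · exact (eq h (CfH3.isSolvable_dihedral k)).elim
  · exact absurd (CfH3.isSolvable_of_fix H x hx) ns
  · exact (eq h (solv23 (by rw [alternatingGroup.card_of_card_eq_four (by simp)]; norm_num))).elim
  · exact (eq h (solv23 (by rw [Nat.card_perm]; simp [Nat.factorial]))).elim
  · refine ⟨e.isSimpleGroup, ?_, h3⟩
    rw [Nat.card_congr e.toEquiv, nat_card_alternatingGroup]
    simp [Nat.factorial]
  · obtain ⟨m, m0, hm⟩ := CfH3.card_eq_pow_of_subfield E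
    rw [Nat.card_zmod] at hm
    have hE : Nat.card E = p := by
      have := (Nat.Prime.pow_eq_iff hp.out).1 hm
      exact this.1
    letI := Fintype.ofFinite E
    have hE' : Fintype.card E = p := by rw [← Nat.card_eq_fintype_card, hE]
    have pos : 0 < p * (p ^ 2 - 1) := Nat.mul_pos hp.out.pos (by have : 1 < p ^ 2 := Nat.one_lt_pow (by omega) hp.out.one_lt; omega)
    rcases h with ⟨⟨e⟩⟩ | ⟨⟨e⟩⟩
    · haveI := ProjectiveSpecialLinearGroup.rank_two_simple (F := E) (by omega)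
      refine ⟨e.isSimpleGroup, ?_, h3⟩
      have c := CfH3.card_PSL2 hE'
      rw [CfH3.gcd_two_of_odd odd] at c
      rw [Nat.card_congr e.toEquiv]
      have : 3 ∣ p * (p ^ 2 - 1) := by
        rw [show p ^ 2 - 1 = (p + 1) * (p - 1) by simpa using Nat.sq_sub_sq p 1,
          Nat.prime_three.dvd_mul, Nat.prime_three.dvd_mul]
        omega
      rw [← c] at this
      exact (Nat.Coprime.dvd_mul_right (by norm_num)).1 this
    · exfalso
      have c := CfH3.card_PGL2 hE'
      have := Nat.le_of_dvd Nat.card_pos (card_subgroup_dvd_card H)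
      rw [Nat.card_congr e.toEquiv, c] at this
      omega

variable {G : Type u} [Group G] [Finite G] {p : ℕ} [hp : Fact p.Prime]

theorem map_eq_bot_of_perfect {M : Type*} [Group M] {Y : Subgroup G} (hY : ⁅Y, Y⁆ = Y) (f : G →* M)
    (h : Group.IsSolvable (Y.map f)) : Y.map f = ⊥ :=
  eq_bot_of_perfect_of_isSolvable (by rw [← Subgroup.map_commutator, hY]) h

theorem perfect_subgroupOf {Y U : Subgroup G} (h : Y ≤ U) (hY : ⁅Y, Y⁆ = Y) :
    ⁅Y.subgroupOf U, Y.subgroupOf U⁆ = Y.subgroupOf U := by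
  apply Subgroup.map_injective U.subtype_injective
  rw [Subgroup.map_commutator, map_subgroupOf_eq_of_le h, hY]

theorem exists_psl_hom {V A : Subgroup G} (hV : El p 2 V V) (hn : A ≤ Nm(V)) (hA : ⁅A, A⁆ = A) :
    ∃ f : A →* PSL(2, ZMod p), ∀ Y : Subgroup A, ⁅Y, Y⁆ = Y → Y ≤ f.ker → ∀ y ∈ Y, (y : G) ∈ Cz(V) := by
  have hr : Module.finrank (ZMod p) (EA hV.eab) = 2 :=
    Nat.pow_right_injective hp.out.two_le ((EA.card_eq_pow hV.eab).symm.trans hV.card)
  let b := Module.finBasisOfFinrankEq (ZMod p) (EA hV.eab) hr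
  let f : A →* Matrix (Fin 2) (Fin 2) (ZMod p) :=
    (LinearMap.toMatrixAlgEquiv b).toMulEquiv.toMonoidHom.comp (EA.rep hV.eab hn)
  have hk : ∀ a : A, f a = 1 → (a : G) ∈ Cz(V) := fun a ha => by
    rw [← EA.rep_eq_one_iff (hV := hV.eab) hn]
    exact (LinearMap.toMatrixAlgEquiv b).map_eq_one_iff.1 ha
  have hd : ∀ a : A, (f a).det = 1 := by
    let d : A →* (ZMod p)ˣ := (Matrix.detMonoidHom.comp f).toHomUnits
    have t : ⁅(⊤ : Subgroup A), (⊤ : Subgroup A)⁆ = ⊤ := by
      have := perfect_subgroupOf le_rfl hA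
      rwa [subgroupOf_self] at this
    have := map_eq_bot_of_perfect t d inferInstance
    intro a
    have h1 : d a ∈ (⊤ : Subgroup A).map d := mem_map_of_mem _ (mem_top a)
    rw [this, mem_bot] at h1
    exact congrArg Units.val h1
  let g : A →* SL(2, ZMod p) :=
    { toFun := fun a => ⟨f a, hd a⟩
      map_one' := Subtype.ext f.map_one
      map_mul' := fun a b => Subtype.ext (f.map_mul a b) }
  refine ⟨(QuotientGroup.mk' _).comp g, fun Y hY hle y hy => hk y ?_⟩
  have hc : Y.map g ≤ center SL(2, ZMod p) := by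
    rintro _ ⟨a, ha, rfl⟩
    exact (QuotientGroup.eq_one_iff _).1 (hle ha)
  have := map_eq_bot_of_perfect hY g (Group.isSolvable_of_comm fun a b =>
    Subtype.ext (mem_center_iff.1 (hc b.2) a))
  have h1 : g y ∈ Y.map g := mem_map_of_mem _ hy
  rw [this, mem_bot] at h1
  exact congrArg Subtype.val h1

/-- a perfect group acting on a `p`-group of rank at most two -/
theorem lemG (h2 : p ≠ 2) {R U : Subgroup G} (hR : IsPGroup p R) (hr : rk p R ≤ 2) (hn : U ≤ Nm(R)) (hU : ⁅U, U⁆ = U) :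
    ∃ C, C ≤ U ∧ U ≤ Nm(C) ∧ (∀ Y, Y ≤ C → ⁅Y, Y⁆ = Y → Y ≤ Cz(R)) ∧ (p = 3 → C = U) ∧
      ∀ N, C ≤ N → N ≤ U → U ≤ Nm(N) → N = U ∨ (N = C ∧ 3 ∣ C.relIndex U) := by
  obtain ⟨H, h1, h3, hV, hrk, h5⟩ := exists_crit_rank2 h2 hR hr
  have UH : U ≤ Nm(H) := hn.trans h3
  have UP : U ≤ Nm(Phi H) := UH.trans (Nm_le_Nm_Phi H)
  have key : ∀ Y, Y ≤ U → ⁅Y, Y⁆ = Y → ⁅H, Y⁆ ≤ Phi H → Y ≤ Cz(R) := fun Y a b c => by
    rw [← pResidualOf_eq_of_perfect (p := p) b]
    exact pRes_le_of_forall fun B d e _ => h5 B (d.trans (a.trans hn)) e ((commutator_mono le_rfl d).trans c)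
  have hA : qb (Phi H) U ≤ Nm(qb (Phi H) H) := qb_le_Nm UH
  have pA : ⁅qb (Phi H) U, qb (Phi H) U⁆ = qb (Phi H) U := by rw [← qb_commutator UP UP, hU]
  have hel := el_rk_of_eab hV le_rfl
  by_cases e : rk p (qb (Phi H) H) = 2
  swap
  · have hc : Cyc (qb (Phi H) H) := cyc_of_ab_of_rk_le hel.pgrp hel.ab (by omega)
    have := commutator_le_Cz_of_isCyclic hc hA
    rw [pA, qb_le_Cz_iff UP (le_Nm_Phi H), Subgroup.commutator_comm] at this
    exact ⟨U, le_rfl, le_normalizer, fun Y a b => key Y a b ((commutator_mono le_rfl a).trans this), fun _ => rfl,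
      fun N a b _ => .inl (le_antisymm b a)⟩
  rw [e] at hel
  obtain ⟨f₀, hf⟩ := exists_psl_hom hel hA pA
  let π : U →* qb (Phi H) U := ((nmQuot (Phi H)).comp (inclusion UP)).codRestrict _ fun x => nmQuot_mem_qb x.2
  let f := f₀.comp π
  have tU : ⁅(⊤ : Subgroup U), (⊤ : Subgroup U)⁆ = ⊤ := by
    have := perfect_subgroupOf le_rfl hU
    rwa [subgroupOf_self] at this
  have pr : ⁅f.range, f.range⁆ = f.range := by rw [f.range_eq_map, ← Subgroup.map_commutator, tU]
  have triv : f.range = ⊥ → f.ker.map U.subtype = U := fun h => by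
    rw [MonoidHom.range_eq_bot_iff] at h
    rw [h, MonoidHom.ker_one, ← MonoidHom.range_eq_map, range_subtype]
  refine ⟨f.ker.map U.subtype, map_subtype_le _, ?_, fun Y a b => ?_, fun h => ?_, fun N a b c => ?_⟩
  · exact (normal_subgroupOf_iff_le_normalizer (map_subtype_le _)).1 (by
      rw [subgroupOf, comap_map_eq_self_of_injective U.subtype_injective]; infer_instance)
  · have YU : Y ≤ U := a.trans (map_subtype_le _)
    refine key Y YU b ?_
    rw [Subgroup.commutator_comm, ← qb_le_Cz_iff (YU.trans UP) (le_Nm_Phi H)]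
    rintro _ ⟨g, hg, rfl⟩
    have hg : (g : G) ∈ Y := hg
    refine hf ((Y.subgroupOf U).map π) (by rw [← Subgroup.map_commutator, perfect_subgroupOf YU b]) ?_
      (π ⟨g, YU hg⟩) (mem_map_of_mem _ hg)
    rintro _ ⟨y, hy, rfl⟩
    obtain ⟨z, hz, e⟩ := a hy
    obtain rfl : z = y := Subtype.ext e
    exact hz
  · exact triv (by_contra fun n => (psl_perfect h2 _ pr n).2.2 h)
  · by_cases n : f.range = ⊥
    · exact .inl (le_antisymm b ((triv n).ge.trans a))
    obtain ⟨s, d, -⟩ := psl_perfect h2 _ pr n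
    haveI : (N.subgroupOf U).Normal := (normal_subgroupOf_iff_le_normalizer b).2 c
    have kN : f.ker ≤ N.subgroupOf U := fun x hx => a (mem_map_of_mem _ hx)
    rcases s.eq_bot_or_eq_top_of_normal ((N.subgroupOf U).map f.rangeRestrict)
      (Normal.map inferInstance _ f.rangeRestrict_surjective) with h | h
    · rw [Subgroup.map_eq_bot_iff, MonoidHom.ker_rangeRestrict] at h
      refine .inr ⟨le_antisymm (fun x hx => ⟨⟨x, b hx⟩, h (x := ⟨x, b hx⟩) hx, rfl⟩) a, ?_⟩
      rwa [Subgroup.relIndex, subgroupOf, comap_map_eq_self_of_injective U.subtype_injective, index_ker]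
    · left
      have := congrArg (comap f.rangeRestrict) h
      rw [comap_map_eq, MonoidHom.ker_rangeRestrict, sup_eq_left.2 kN, comap_top, subgroupOf_eq_top] at this
      exact le_antisymm b this

end CfH3.QK
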