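import Cfsg.Agent.H3.QK1
import Cfsg.Agent.H1.MinNormal
import Cfsg.Agent.H9.RankOne
import Cfsg.Prelude.Def_Quasithin
/-! Perfect cores, the solvable radical and C-components. -/
set_option autoImplicit false
set_option linter.unusedSectionVars false
open Subgroup Cfsg Function CfH9 CfH7 CfH8 CfH1 CfFT
open scoped commutatorElement
namespace CfH3.QK
universe u v

variable {G : Type u} [Group G] {G' : Type v} [Group G']

/-- the perfect core of a subgroup -/
def PC (A : Subgroup G) : Subgroup G := sSup {L | L ≤ A ∧ ⁅L, L⁆ = L}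

def D (n : ℕ) (A : Subgroup G) : Subgroup G := (derivedSeries A n).map A.subtype

theorem D_zero (A : Subgroup G) : D 0 A = A := by simp [D, ← MonoidHom.range_eq_map]
theorem D_succ (n : ℕ) (A : Subgroup G) : D (n + 1) A = ⁅D n A, D n A⁆ := by
  rw [D, derivedSeries_succ, Subgroup.map_commutator, D]
theorem map_D (n : ℕ) (A : Subgroup G) (f : G →* G') : (D n A).map f = D n (A.map f) := by
  induction n with
  | zero => rw [D_zero, D_zero]
  | succ n ih => rw [D_succ, D_succ, Subgroup.map_commutator, ih]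
theorem le_PC {L A : Subgroup G} (h : L ≤ A) (hL : ⁅L, L⁆ = L) : L ≤ PC A := le_sSup ⟨h, hL⟩
theorem PC_le (A : Subgroup G) : PC A ≤ A := sSup_le fun _ h => h.1
theorem perfect_sSup {S : Set (Subgroup G)} (h : ∀ L ∈ S, ⁅L, L⁆ = L) : ⁅sSup S, sSup S⁆ = sSup S :=
  le_antisymm (der_le _) (sSup_le fun L hL => (h L hL).ge.trans (commutator_mono (le_sSup hL) (le_sSup hL)))
theorem perfect_sup {A B : Subgroup G} (hA : ⁅A, A⁆ = A) (hB : ⁅B, B⁆ = B) : ⁅A ⊔ B, A ⊔ B⁆ = A ⊔ B :=
  le_antisymm (der_le _) (sup_le (hA.ge.trans (commutator_mono le_sup_left le_sup_left))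
    (hB.ge.trans (commutator_mono le_sup_right le_sup_right)))
theorem PC_perfect (A : Subgroup G) : ⁅PC A, PC A⁆ = PC A := perfect_sSup fun _ h => h.2
theorem PC_eq {A : Subgroup G} (h : ⁅A, A⁆ = A) : PC A = A := le_antisymm (PC_le A) (le_PC le_rfl h)
theorem PC_top : PC (⊤ : Subgroup G) = perfectCore G := by simp [PC, perfectCore]
theorem PC_le_D (n : ℕ) (A : Subgroup G) : PC A ≤ D n A := by
  induction n with
  | zero => rw [D_zero]; exact PC_le A
  | succ n ih => rw [D_succ, ← PC_perfect]; exact commutator_mono ih ih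
theorem D_le (n : ℕ) (A : Subgroup G) : D n A ≤ A := map_subtype_le _
theorem Nm_le_D (n : ℕ) (A : Subgroup G) : Nm(A) ≤ Nm(D n A) := Nm_le_Nm_char _

theorem exists_D [Finite G] (A : Subgroup G) : ∃ n, D n A = PC A := by
  obtain ⟨B, ⟨n, rfl⟩, h⟩ := exists_min_card (fun B => ∃ n, B = D n A) ⟨_, 0, rfl⟩
  refine ⟨n, le_antisymm (le_PC (D_le n A) ?_) (PC_le_D n A)⟩
  exact eq_of_le_of_card_ge (der_le _) (by rw [← D_succ]; exact h _ ⟨_, rfl⟩)

theorem map_PC [Finite G] (A : Subgroup G) (f : G →* G') : (PC A).map f = PC (A.map f) := by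
  refine le_antisymm (le_PC (map_mono (PC_le A)) (by rw [← Subgroup.map_commutator, PC_perfect])) ?_
  obtain ⟨n, h⟩ := exists_D A
  rw [← h, map_D]
  exact PC_le_D _ _

theorem Nm_le_PC [Finite G] (A : Subgroup G) : Nm(A) ≤ Nm(PC A) := by
  obtain ⟨n, h⟩ := exists_D A
  rw [← h]; exact Nm_le_D n A

theorem PC_eq_bot_iff [Finite G] {A : Subgroup G} : PC A = ⊥ ↔ Sol A := by
  refine ⟨fun h => ?_, fun h => eq_bot_of_perfect_of_isSolvable (PC_perfect A) (isSolvable_of_le (PC_le A) h)⟩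
  obtain ⟨n, e⟩ := exists_D A
  rw [h, D, map_eq_bot_iff_of_injective _ A.subtype_injective] at e
  exact ⟨n, e⟩

theorem subnormal_PC [Finite G] {A : Subgroup G} (h : A.IsSubnormal) : (PC A).IsSubnormal :=
  (subnIn_of_normal (PC_le A) (le_normalizer.trans (Nm_le_PC A))).isSubnormal h

theorem le_of_perfect_sup {M K B : Subgroup G} (hM : ⁅M, M⁆ = M) (h1 : M ≤ Nm(K)) (h2 : B ≤ Nm(K)) (h : M ≤ B ⊔ K)
    (hB : Sol B) : M ≤ K := by
  rw [← qb_eq_bot_iff h1]
  refine eq_bot_of_perfect_of_isSolvable (by rw [← qb_commutator h1 h1, hM]) (isSolvable_of_le ?_ (sol_qb (N := K) hB))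
  rw [← qb_sup_self h2]
  exact qb_mono h

/-- a perfect subnormal subgroup is determined modulo a solvable normal subgroup -/
theorem le_of_subnormal [Finite G] {L M N : Subgroup G} [N.Normal] (hN : Sol N) (hL : L.IsSubnormal) (pL : ⁅L, L⁆ = L)
    (pM : ⁅M, M⁆ = M) (h : M ≤ L ⊔ N) : M ≤ L := by
  by_contra n
  have ne : L ≠ L ⊔ M := fun e => n (e ▸ le_sup_right)
  obtain ⟨K, k1, k2, k3⟩ := (subnIn_of_isSubnormal hL (le_sup_left : L ≤ L ⊔ M)).exists_normal ne
  refine k2.not_ge (le_of_perfect_sup (B := N ⊓ (L ⊔ M)) (perfect_sup pL pM) k3 (inf_le_right.trans k3) ?_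
    (isSolvable_of_le inf_le_left hN))
  have := inf_sup_dedekind (A := L) (B := N) (C := L ⊔ M) (.inl (le_normalizer_of_normal)) le_sup_left
  rw [inf_eq_right.2 (sup_le le_sup_left h)] at this
  rw [this]
  exact sup_le (k1.trans le_sup_right) (by rw [← this]; exact le_sup_left)

theorem sol_comap {f : G →* G'} (hk : Sol f.ker) {B : Subgroup G'} (hB : Sol B) : Sol (B.comap f) := by
  haveI := hB
  haveI : Sol ((f.subgroupComap B).ker) := by
    refine Group.isSolvable_of_isSolvable_injective (f := (((B.comap f).subtype.comp (f.subgroupComap B).ker.subtype).codRestrict f.ker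
      fun x => congrArg Subtype.val x.2)) fun a b h => ?_
    have h2 := congrArg Subtype.val h
    exact Subtype.ext (Subtype.ext h2)
  exact Group.isSolvable_of_ker_le_range (f.subgroupComap B).ker.subtype (f.subgroupComap B) (by simp)

variable [Finite G]

theorem cc_sol {L N : Subgroup G} (hL : L ∈ calC G) (hN : N.IsSubnormal) (h : N < L) : Sol N := by
  rw [← PC_eq_bot_iff]
  by_contra n
  exact hL.2.2.2 _ ((PC_le N).trans_lt h) ⟨n, PC_perfect N, subnormal_PC hN⟩

theorem cc_not_sol {L : Subgroup G} (hL : L ∈ calC G) : ¬ Sol L := fun h =>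
  hL.1 (eq_bot_of_perfect_of_isSolvable hL.2.1 h)

theorem cc_map {L : Subgroup G} (hL : L ∈ calC G) {f : G →* G'} (hf : Surjective f) (hk : Sol f.ker) :
    L.map f ∈ calC G' := by
  refine ⟨fun h => cc_not_sol hL (isSolvable_of_le ((Subgroup.map_eq_bot_iff _).1 h) hk), by rw [← Subgroup.map_commutator, hL.2.1],
    hL.2.2.1.map hf, fun K hK ⟨a, b, c⟩ => a (eq_bot_of_perfect_of_isSolvable b ?_)⟩
  have := cc_sol hL (hL.2.2.1.inf (c.comap f)) (lt_of_le_of_ne inf_le_left fun e =>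
    hK.not_ge (map_le_iff_le_comap.2 (inf_eq_left.1 e)))
  have := isSolvable_map f this
  rwa [map_inf_comap', inf_eq_right.2 hK.le] at this

theorem cc_cj {L : Subgroup G} (hL : L ∈ calC G) (g : G) : cj g L ∈ calC G :=
  cc_map hL (MulAut.conj g).surjective (by
    rw [(MonoidHom.ker_eq_bot_iff _).2 (MulAut.conj g).injective]; infer_instance)

theorem eq_of_map_eq {L M : Subgroup G} (hL : L ∈ calC G) (hM : M ∈ calC G) {f : G →* G'} (hk : Sol f.ker)
    (h : L.map f = M.map f) : L = M := by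
  have e : L ⊔ f.ker = M ⊔ f.ker := by rw [← comap_map_eq, h, comap_map_eq]
  exact le_antisymm (le_of_subnormal hk hM.2.2.1 hM.2.1 hL.2.1 (e ▸ le_sup_left))
    (le_of_subnormal hk hL.2.2.1 hL.2.1 hM.2.1 (e ▸ le_sup_left))

theorem Nm_eq_comap {L : Subgroup G} (hL : L ∈ calC G) {f : G →* G'} (hk : Sol f.ker) :
    Nm(L) = (Nm(L.map f)).comap f := by
  ext g
  rw [mem_comap, mem_normalizer_iff_cj, mem_normalizer_iff_cj, ← map_cj]
  exact ⟨fun h => by rw [h], eq_of_map_eq (cc_cj hL g) hL hk⟩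

theorem cc_comap {L : Subgroup G'} (hL : L ∈ calC G') {f : G →* G'} (hf : Surjective f) (hk : Sol f.ker) :
    PC (L.comap f) ∈ calC G ∧ (PC (L.comap f)).map f = L := by
  have e : (PC (L.comap f)).map f = L := by rw [map_PC, map_comap_eq_self_of_surjective hf, PC_eq hL.2.1]
  refine ⟨⟨fun h => hL.1 (by rw [← e, h, Subgroup.map_bot]), PC_perfect _, subnormal_PC (hL.2.2.1.comap f),
    fun K hK ⟨a, b, c⟩ => ?_⟩, e⟩
  refine hL.2.2.2 (K.map f) (lt_of_le_of_ne (e ▸ map_mono hK.le) fun h => hK.not_ge ?_)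
    ⟨fun h => a (eq_bot_of_perfect_of_isSolvable b (isSolvable_of_le ((Subgroup.map_eq_bot_iff _).1 h) hk)),
      by rw [← Subgroup.map_commutator, b], c.map hf⟩
  refine le_of_subnormal hk c b (PC_perfect _) ?_
  rw [← comap_map_eq, h]
  exact PC_le _

theorem core_le_of_map {f : G →* G'} (hf : Surjective f) (hk : Sol f.ker) (h : perfectCore G' ≤ sSup (calC G')) :
    perfectCore G ≤ sSup (calC G) := by
  refine le_of_subnormal hk (isSubnormal_sSup fun _ h => h.2.2.1) (perfect_sSup fun _ h => h.2.1)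
    (perfect_sSup fun _ h => h) ?_
  rw [← comap_map_eq, ← map_le_iff_le_comap, ← PC_top, map_PC, map_top_of_surjective _ hf, PC_top]
  refine h.trans (sSup_le fun L hL => ?_)
  obtain ⟨a, b⟩ := cc_comap hL hf hk
  exact b ▸ map_mono (le_sSup a)

theorem exists_radical (G : Type u) [Group G] [Finite G] :
    ∃ S : Subgroup G, ∃ _ : S.Normal, Sol S ∧ fittingSubgroup (G ⧸ S) = ⊥ := by
  obtain ⟨S, ⟨hn, hs⟩, h⟩ := exists_max_card (fun S : Subgroup G => S.Normal ∧ Sol S) ⟨⊥, inferInstance, inferInstance⟩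
  refine ⟨S, hn, hs, ?_⟩
  have le : S ≤ (fittingSubgroup (G ⧸ S)).comap (QuotientGroup.mk' S) :=
    (QuotientGroup.ker_mk' S).ge.trans (ker_le_comap _ _)
  have := eq_of_le_of_card_ge le (h _ ⟨inferInstance, sol_comap (by rwa [QuotientGroup.ker_mk']) inferInstance⟩)
  rw [← map_comap_eq_self_of_surjective (QuotientGroup.mk'_surjective S) (fittingSubgroup _), ← this,
    Subgroup.map_eq_bot_iff, QuotientGroup.ker_mk']

theorem le_Cz_of_eq_bot {A B : Subgroup G} (h : B = ⊥) : A ≤ Cz(B) := by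
  rw [le_centralizer_iff, h]; exact bot_le

theorem eq_bot_of_sol (hF : fittingSubgroup G = ⊥) {A : Subgroup G} (hA : A.IsSubnormal) (h : Sol A) : A = ⊥ := by
  rcases le_fitting_or_exists_component hA (le_Cz_of_eq_bot hF) with h1 | ⟨K, k1, k2⟩
  · rwa [hF, le_bot_iff] at h1
  · exact absurd k2 (qs_not_le_of_isSolvable k1.2 h)

theorem cc_of_comp {L : Subgroup G} (h : IsComponent L) : L ∈ calC G := by
  refine ⟨qs_ne_bot h.2, qs_perfect h.2, h.1, fun K hK ⟨a, b, c⟩ => ?_⟩
  rcases qs_subnIn h.2 (subnIn_of_isSubnormal c hK.le) with e | e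
  · exact a (by rw [← b, commutator_eq_bot_iff']; exact e.trans (Cz_anti hK.le))
  · exact hK.ne e

theorem comp_of_cc {L : Subgroup G} (hL : L ∈ calC G) (h : L ≤ Cz(fittingSubgroup G)) : IsComponent L := by
  rcases le_fitting_or_exists_component hL.2.2.1 h with h1 | ⟨K, k1, k2⟩
  · exact absurd (isSolvable_of_le h1 inferInstance) (cc_not_sol hL)
  · rcases k2.lt_or_eq with e | e
    · exact absurd ⟨qs_ne_bot k1.2, qs_perfect k1.2, k1.1⟩ (hL.2.2.2 K e)
    · exact e ▸ k1

theorem core_le_of_forall (hF : fittingSubgroup G = ⊥) (h : ∀ L ∈ calC G, perfectCore G ≤ L ⊔ Cz(L)) :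
    perfectCore G ≤ sSup (calC G) := by
  have cc : ∀ L ∈ calC G, IsComponent L := fun L hL => comp_of_cc hL (le_Cz_of_eq_bot hF)
  have LW : ∀ L ∈ calC G, L ≤ perfectCore G := fun L hL => le_sSup hL.2.1
  have key : ∀ S : Set (Subgroup G), S ⊆ calC G → ∀ w ∈ perfectCore G, ∃ e ∈ sSup (calC G), ∃ c ∈ perfectCore G,
      w = e * c ∧ ∀ L ∈ S, c ∈ Cz(L) := by
    intro S
    induction S, Set.toFinite S using Set.Finite.induction_on with
    | empty => exact fun _ w hw => ⟨1, one_mem _, w, hw, (one_mul _).symm, fun _ h => h.elim⟩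
    | @insert L S n _ ih =>
      intro hS w hw
      have hL := hS (Set.mem_insert _ _)
      obtain ⟨e, he, c, hc, rfl, h1⟩ := ih ((Set.subset_insert _ _).trans hS) w hw
      obtain ⟨l, hl, d, hd, rfl⟩ := (mem_sup_of_le_Nm (le_normalizer.trans (Nm_le_Nm_Cz L))).1 (h L hL hc)
      refine ⟨e * l, mul_mem he (le_sSup hL hl), d, (mul_mem_cancel_left (LW L hL hl)).1 hc, (mul_assoc _ _ _).symm, ?_⟩
      rintro M (rfl | hM)
      · exact hd
      have hM' := hS (Set.mem_insert_of_mem _ hM)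
      rcases component_eq_or_commutator_eq_bot (cc M hM') (cc L hL) with e | e
      · exact absurd (e ▸ hM) n
      exact (mul_mem_cancel_left (commutator_eq_bot_iff'.1 e hl)).1 (h1 M hM)
  intro w hw
  obtain ⟨e, he, c, -, rfl, h1⟩ := key _ subset_rfl w hw
  have hc : c ∈ Cz(layer G) := by
    rw [← zpowers_le, le_centralizer_iff, layer_le_iff]
    exact fun K hK => le_centralizer_iff.1 (zpowers_le.2 (h1 K (cc_of_comp hK)))
  rcases le_fitting_or_exists_component (S := Cz(layer G)) (Normal.isSubnormal inferInstance) (le_Cz_of_eq_bot hF) with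
    h2 | ⟨K, k1, k2⟩
  · have := h2 hc
    rw [hF, mem_bot] at this
    rwa [this, mul_one]
  · exact absurd (k2.trans (Cz_anti (le_layer k1))) (qs_not_le_centralizer k1.2)

end CfH3.QK
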