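import Cfsg.Agent.H3.QK2
import Cfsg.Agent.H3.Quat
/-! Rank lemmas for central extensions and the outer action on a quasisimple normal subgroup. -/
set_option autoImplicit false
set_option linter.unusedSectionVars false
open Subgroup Cfsg Function CfH9 CfH7 CfH8 CfH1 CfFT
open scoped commutatorElement
namespace CfH3.QK
universe u v

variable {G : Type u} [Group G] [Finite G] {p : ℕ} [hp : Fact p.Prime]

theorem le_rk_of_rank {n : ℕ} (h : PRankAtLeast p n G) : n ≤ rk p (⊤ : Subgroup G) := by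
  obtain ⟨A, h1, h2, h3⟩ := h
  obtain ⟨m, hm⟩ := exists_el_of_eab (H := ⊤) ⟨h1, h2⟩ le_top
  rw [hm.card] at h3
  exact ((Nat.pow_le_pow_iff_right hp.out.one_lt).1 h3).trans hm.le_rk

theorem exists_noncentral (h2 : p ≠ 2) {Y : Subgroup G} (hY : ⁅Y, Y⁆ = Y) (hd : p ∣ Nat.card Y) :
    ∃ x ∈ Y, x ^ p = 1 ∧ x ∉ Cz(Y) := by
  by_contra n
  push Not at n
  obtain ⟨S, hS⟩ := exists_sylIn p Y
  refine not_pNil_of_perfect hY hd (pNil_of_omega h2 hS fun t ht h1 g hg _ => ?_)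
  rw [mem_centralizer_iff.1 (n t (hS.le ht) h1) g hg, mul_inv_cancel_right]

theorem not_dvd_of_le_Cz (h2 : p ≠ 2) (hr : rk p (⊤ : Subgroup G) ≤ 2) {E H Y : Subgroup G} (hE : El p 2 E H)
    (hY : ⁅Y, Y⁆ = Y) (h : Y ≤ Cz(E)) : ¬ p ∣ Nat.card Y := fun hd => by
  obtain ⟨x, a, b, c⟩ := exists_noncentral h2 hY hd
  exact c (le_centralizer_iff.1 h (((hE.of_le le_top).pMax hr).mem (mem_top x) b (h a)))

theorem exists_el_two (h2 : p ≠ 2) {K : Type v} [Group K] [Finite K] {L R : Subgroup G} (hR : SylIn p R L) {f : L →* K}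
    (hf : Surjective f) (h : PRankAtLeast p 2 K) : ∃ E, El p 2 E R := by
  refine exists_el_two_of_not_cyc h2 hR.pgrp fun c => ?_
  have := le_rk_of_rank h
  rw [← rk_sylIn (hR.subgroupOf_top.map_surj hf)] at this
  have := Cyc.rk_le (p := p) (cyc_map (cyc_subgroupOf c L) f)
  omega

theorem real_lift (hZ : Odd (Nat.card (center G))) {x : G ⧸ center G} (h1 : x ^ p = 1) (h : IsConj x x⁻¹) :
    ∃ a : G, (a : G ⧸ center G) = x ∧ a ^ p = 1 := by
  obtain ⟨g, hg⟩ := isConj_iff.1 h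
  obtain ⟨a, rfl⟩ := QuotientGroup.mk_surjective x
  obtain ⟨g, rfl⟩ := QuotientGroup.mk_surjective g
  have hc : a ^ p ∈ center G := (QuotientGroup.eq_one_iff _).1 h1
  have hd : g * a * g⁻¹ * a ∈ center G := (QuotientGroup.eq_one_iff _).1 (by
    rw [QuotientGroup.mk_mul, QuotientGroup.mk_mul, QuotientGroup.mk_mul, QuotientGroup.mk_inv, hg, inv_mul_cancel])
  set d := g * a * g⁻¹ * a with e
  have cm : ∀ {z}, z ∈ center G → ∀ b : G, Commute b z := fun hz b => mem_center_iff.1 hz b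
  have e1 : (d * a⁻¹) ^ p = a ^ p := by
    rw [e, mul_inv_cancel_right, conj_pow, (cm hc g).eq, mul_inv_cancel_right]
  rw [(cm hd a⁻¹).symm.mul_pow, inv_pow, mul_inv_eq_iff_eq_mul] at e1
  obtain ⟨k, hk⟩ := hZ
  have e2 : (a ^ p) ^ (2 * k + 1) = 1 := hk ▸ pow_card_eq_one_of_mem hc
  have hd' : (d ^ (k + 1))⁻¹ ∈ center G := inv_mem (pow_mem hd _)
  refine ⟨a * (d ^ (k + 1))⁻¹, by rw [QuotientGroup.mk_mul, (QuotientGroup.eq_one_iff _).2 hd', mul_one], ?_⟩
  rw [(cm hd' a).mul_pow, inv_pow, ← pow_mul, mul_comm (k + 1), pow_mul, e1, ← sq, ← pow_mul, mul_inv_eq_one,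
    show 2 * (k + 1) = 2 * k + 1 + 1 by ring, pow_succ, e2, one_mul]

theorem lift_aux (h2 : p ≠ 2) (hr : rk p (⊤ : Subgroup G) ≤ 2) {A : Subgroup (G ⧸ center G)} (hA : EAb p A) :
    ∃ Ω : Subgroup G, (∀ x : G, (x : G ⧸ center G) ∈ A → x ^ p = 1 → x ∈ Ω) ∧ Nat.card A ≤ p ^ 3 ∧
      Nat.card (Ω.map (QuotientGroup.mk' (center G))) ≤ p ^ 2 := by
  set π := QuotientGroup.mk' (center G)
  set B := A.comap π
  have cm : ∀ {z}, z ∈ center G → ∀ b : G, Commute b z := fun hz b => mem_center_iff.1 hz b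
  have hc : ∀ x ∈ B, ∀ y ∈ B, ⁅x, y⁆ ∈ center G := fun x hx y hy => by
    rw [← QuotientGroup.ker_mk' (center G), MonoidHom.mem_ker, map_commutatorElement, commutatorElement_eq_one_iff_mul_comm]
    exact comm_iff.1 hA.1 _ hx _ hy
  have hB : ⁅B, B⁆ ≤ center G := commutator_le.2 hc
  have pw : ∀ x ∈ B, x ^ p ∈ center G := fun x hx => by
    rw [← QuotientGroup.ker_mk' (center G), MonoidHom.mem_ker, map_pow]
    exact hA.2 _ hx
  have c2 : ⁅⁅B, B⁆, B⁆ = ⊥ := by
    rw [commutator_eq_bot_iff', le_centralizer_iff]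
    exact hB.trans (center_le_centralizer _)
  have om := fun x => mem_Om_of_class2 h2 c2 (x := x)
  have h3 := card_le_cube_of_rk_le h2 ((rk_mono (le_top : Om p B ≤ ⊤)).trans hr) fun x hx => ((om x).1 hx).2
  have p0 := hp.out.pos
  refine ⟨Om p B, fun x a b => (om x).2 ⟨a, b⟩, ?_, ?_⟩
  · obtain ⟨U, u1, u2⟩ := exists_mho (p := p) (S := B) fun x hx y hy =>
      mul_pow_of_class2 h2 (cm (hc y hy x hx) x) (cm (hc y hy x hx) y) (by
        rw [← comm_pow_left (cm (hc y hy x hx) y), commutatorElement_eq_one_iff_mul_comm]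
        exact (cm (pw y hy) x).eq.symm)
    have u3 : Nat.card U ≤ Nat.card (center G) := card_le_of_le fun z hz => by
      obtain ⟨x, hx, rfl⟩ := (u1 z).1 hz
      exact pw x hx
    have cB : Nat.card B = Nat.card (center G) * Nat.card A :=
      (Nat.card_congr (QuotientGroup.preimageMkEquivSubgroupProdSet (center G) (A : Set (G ⧸ center G)))).trans (Nat.card_prod _ _)
    refine le_trans ?_ (Nat.le_of_dvd (pow_pos p0 3) h3)
    refine Nat.le_of_mul_le_mul_left (c := Nat.card (center G)) ?_ Nat.card_pos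
    rw [← cB, ← u2, mul_comm]
    exact Nat.mul_le_mul_right _ u3
  · by_cases e : Om p B ⊓ center G = ⊥
    · have le : Om p B ≤ B := fun x hx => ((om x).1 hx).1
      have ea : EAb p (Om p B) := ⟨ab_iff_comm.2 (le_bot_iff.1 (e ▸ le_inf (der_le _) ((commutator_mono le le).trans hB))),
        fun x hx => ((om x).1 hx).2⟩
      have := el_rk_of_eab ea (le_top (a := Om p B))
      refine (Nat.le_of_dvd Nat.card_pos (card_map_dvd _ π)).trans ?_
      rw [this.card]
      exact Nat.pow_le_pow_right p0 ((rk_mono le_top).trans hr)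
    · have d : p ∣ Nat.card (Om p B ⊓ center G : Subgroup G) := by
        obtain ⟨x, hx, h1⟩ := exists_orderOf_prime_of_ne_bot (p := p)
          (isPGroup_of_exp fun x hx => ((om x).1 (mem_inf.1 hx).1).2) e
        exact h1.symm.dvd.trans (Subgroup.orderOf_dvd_natCard _ hx)
      have c := relIndex_mul_card (inf_le_left : Om p B ⊓ center G ≤ Om p B)
      rw [inf_relIndex_left, ← QuotientGroup.ker_mk' (center G), relIndex_ker, QuotientGroup.ker_mk'] at c
      refine Nat.le_of_dvd (pow_pos p0 2) (Nat.dvd_of_mul_dvd_mul_right p0 ?_)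
      rw [← pow_succ]
      exact (mul_dvd_mul_left _ d).trans (c ▸ h3)

theorem not_big (hZ : Odd (Nat.card (center G))) (hr : ∀ p : ℕ, p.Prime → p ≠ 2 → rk p (⊤ : Subgroup G) ≤ 2) :
    ¬ Big (G ⧸ center G) := by
  rintro ⟨p, hp, h2, ⟨x, y, z, a1, a2, a3, b1, b2, b3, c1, c2, c3, d⟩ | ⟨A, h1, h3, h4⟩⟩ <;>
    haveI : Fact p.Prime := ⟨hp⟩
  · have nd : ¬ p ∣ p - 1 := fun h => by
      have := Nat.le_of_dvd (by have := hp.one_lt; omega) h
      have := hp.pos
      omega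
    have ps : ∀ {g : G ⧸ center G}, g ^ p = 1 → g * g ^ (p - 1) = 1 := fun h => by
      rwa [← pow_succ', Nat.sub_add_cancel hp.pos]
    have x1 : x ≠ 1 := fun e => hp.one_lt.ne' (Nat.dvd_one.1 (d 1 0 0 (by simp [e])).1)
    have e1 := el_zpowers (mem_top x) (orderOf_eq_prime a1 x1)
    have yx : y ∈ Cz(zpowers x) := by rw [Cz_zpowers, mem_Cx, b1]
    have e2 := e1.sup_zpowers (mem_top y) a2 yx fun h => by
      obtain ⟨n, hn⟩ := mem_powers_iff_mem_zpowers.2 h
      have hn : x ^ n = y := hn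
      exact nd (d n (p - 1) 0 (by rw [hn, pow_zero, mul_one, ps a2])).2.1
    have e3 := e2.sup_zpowers (mem_top z) a3 (by rw [Cz_sup, Cz_zpowers, Cz_zpowers]; exact ⟨mem_Cx.2 b2.symm, mem_Cx.2 b3.symm⟩)
      fun h => by
        obtain ⟨u, hu, w, hw, e⟩ := (mem_sup_of_le_Nm' ((zpowers_le.2 yx).trans (Cz_le_Nm _))).1 h
        obtain ⟨n, rfl⟩ := mem_powers_iff_mem_zpowers.2 hu
        obtain ⟨m, rfl⟩ := mem_powers_iff_mem_zpowers.2 hw
        exact nd (d n m (p - 1) (by rw [show x ^ n * y ^ m = z from e, ps a3])).2.2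
    obtain ⟨Ω, o1, -, o3⟩ := lift_aux h2 (hr p hp h2) e3.eab
    have m : ∀ g ∈ zpowers x ⊔ zpowers y ⊔ zpowers z, g ^ p = 1 → IsConj g g⁻¹ →
        zpowers g ≤ Ω.map (QuotientGroup.mk' (center G)) := fun g a b c => by
      obtain ⟨t, rfl, ht⟩ := real_lift hZ b c
      exact zpowers_le.2 (mem_map_of_mem _ (o1 t a ht))
    have := card_le_of_le (sup_le (sup_le (m x (mem_sup_left (mem_sup_left (mem_zpowers x))) a1 c1)
      (m y (mem_sup_left (mem_sup_right (mem_zpowers y))) a2 c2)) (m z (mem_sup_right (mem_zpowers z)) a3 c3))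
    rw [e3.card] at this
    exact absurd (this.trans o3) (not_le.2 (Nat.pow_lt_pow_right hp.one_lt (by omega)))
  · obtain ⟨Ω, -, o2, -⟩ := lift_aux h2 (hr p hp h2) ⟨h1, h3⟩
    exact absurd (h4.trans o2) (not_le.2 (Nat.pow_lt_pow_right hp.one_lt (by omega)))

theorem exists_out {L : Subgroup G} [L.Normal] (hL : ⁅L, L⁆ = L) :
    ∃ φ : G →* Out (L ⧸ center L), φ.ker = L ⊔ Cz(L) := by
  let ψ : G →* MulAut (L ⧸ center L) := (autCenterQuot L).comp MulAut.conjNormal
  have inn : ∀ l : L, ψ l = MulAut.conj (l : L ⧸ center L) := fun l => by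
    ext x
    obtain ⟨x, rfl⟩ := QuotientGroup.mk_surjective x
    rfl
  have k : ψ.ker = Cz(L) := by
    refine le_antisymm ?_ fun g hg => ?_
    · rw [← commutator_eq_bot_iff', Subgroup.commutator_comm]
      refine commutator_eq_bot_of_perfect hL ?_
      rw [commutator_eq_bot_iff', le_centralizer_iff]
      refine commutator_le.2 fun g hg x hx => ?_
      have : ψ g (⟨x, hx⟩ : L) = (⟨x, hx⟩ : L) := by rw [MonoidHom.mem_ker.1 hg]; rfl
      have h2 : MulAut.conjNormal g (⟨x, hx⟩ : L) * (⟨x, hx⟩ : L)⁻¹ ∈ center L :=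
        (QuotientGroup.eq_one_iff _).1 (by rw [QuotientGroup.mk_mul, QuotientGroup.mk_inv, mul_inv_eq_one]; exact this)
      exact (map_center_eq L).le (mem_map_of_mem _ h2) |>.2
    · ext x
      obtain ⟨x, rfl⟩ := QuotientGroup.mk_surjective x
      exact congrArg (fun y : L => (y : L ⧸ center L)) (Subtype.ext (conj_eq_of_mem_centralizer hg x.2))
  refine ⟨(QuotientGroup.mk' _).comp ψ, le_antisymm (fun g hg => ?_) (sup_le (fun l hl => ?_) fun g hg => ?_)⟩
  · obtain ⟨x, hx⟩ := (QuotientGroup.eq_one_iff _).1 hg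
    obtain ⟨l, rfl⟩ := QuotientGroup.mk_surjective x
    rw [← mul_inv_cancel_left (l : G) g]
    refine mul_mem (mem_sup_left l.2) (mem_sup_right (k ▸ ?_))
    rw [MonoidHom.mem_ker, map_mul, map_inv, inn, hx, inv_mul_cancel]
  · exact (QuotientGroup.eq_one_iff _).2 ⟨_, (inn ⟨l, hl⟩).symm⟩
  · rw [← k] at hg
    rw [MonoidHom.mem_ker, MonoidHom.comp_apply, MonoidHom.mem_ker.1 hg, map_one]

end CfH3.QK
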