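import Cfsg.Agent.H3.QK3
/-! A perfect group induces inner automorphisms on a normal quasisimple subgroup with odd centre. -/
set_option autoImplicit false
set_option linter.unusedSectionVars false
open Subgroup Cfsg Function CfH9 CfH7 CfH8 CfH1 CfFT
open scoped commutatorElement
namespace CfH3.QK
universe u v

/-- the facts used about the simple sections -/
def KT (G : Type u) [Group G] : Prop := ∀ (J : Type u) [Group J] [Finite J] [IsSimpleGroup J] (H : Subgroup G) (f : H →* J),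
  Surjective f → ¬ IsMulCommutative J →
    T J ∧ (Lie.IsoSuzuki J → ∃ k, Odd k ∧ 3 ≤ k ∧ Nat.card J = 4 ^ k * ((4 ^ k + 1) * (2 ^ k - 1)))

variable {G : Type u} [Group G] [Finite G]

theorem KT.quot {G' : Type u} [Group G'] (h : KT G) {f : G →* G'} (hf : Surjective f) : KT G' :=
  fun J _ _ _ H g hg => h J (H.comap f) (g.comp (f.subgroupComap H)) (hg.comp (f.subgroupComap_surjective_of_surjective H hf))

theorem KT.sub (h : KT G) (N : Subgroup G) : KT N := fun J _ _ _ H g hg =>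
  h J (H.map N.subtype) (g.comp (H.equivMapOfInjective _ N.subtype_injective).symm.toMonoidHom)
    (hg.comp (H.equivMapOfInjective _ N.subtype_injective).symm.surjective)

theorem exists_simple_quot {M : Type v} [Group M] [Finite M] {A : Subgroup M} (hA : ⁅A, A⁆ = A) (hn : A ≠ ⊥) :
    ∃ N : Subgroup A, ∃ _ : N.Normal, IsSimpleGroup (A ⧸ N) ∧ ¬ IsMulCommutative (A ⧸ N) := by
  haveI := (nontrivial_iff_ne_bot A).2 hn
  obtain ⟨N, ⟨n1, n2⟩, -, h⟩ := exists_maximal_ge (fun N : Subgroup A => N.Normal ∧ N ≠ ⊤) ⟨inferInstance, bot_ne_top⟩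
  have sj := QuotientGroup.mk'_surjective N
  haveI : Nontrivial (A ⧸ N) := QuotientGroup.nontrivial_iff.2 n2
  refine ⟨N, n1, ⟨fun K hK => ?_⟩, fun c => n2 ?_⟩
  · by_cases e : K.comap (QuotientGroup.mk' N) = ⊤
    · right; rw [← map_comap_eq_self_of_surjective sj K, e, map_top_of_surjective _ sj]
    · left
      rw [← map_comap_eq_self_of_surjective sj K, h _ ⟨inferInstance, e⟩ ((QuotientGroup.ker_mk' N).ge.trans (ker_le_comap _ _)),
        Subgroup.map_eq_bot_iff, QuotientGroup.ker_mk']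
  · have t := perfect_subgroupOf le_rfl hA
    rw [subgroupOf_self] at t
    have := map_eq_bot_of_perfect t (QuotientGroup.mk' N) (Group.isSolvable_of_comm fun a b => Subtype.ext (c.1.1 _ _))
    rwa [Subgroup.map_eq_bot_iff, QuotientGroup.ker_mk', top_le_iff] at this

theorem relIndex_sup_dvd (L Y : Subgroup G) [L.Normal] : Y.relIndex (L ⊔ Y) ∣ Nat.card L := by
  have h1 := card_sup_mul_card_inf (A := Y) (B := L) le_normalizer_of_normal
  rw [sup_comm, ← relIndex_mul_card (le_sup_right : Y ≤ L ⊔ Y), mul_right_comm, mul_comm (Nat.card Y)] at h1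
  exact ⟨_, (Nat.eq_of_mul_eq_mul_right Nat.card_pos h1).symm⟩

theorem sylow_cent {L V P : Subgroup G} [L.Normal] (hL : IsQuasisimple L) (hV : L ≤ V) {s : ℕ} [Fact s.Prime]
    (hs : ¬ s ∣ Nat.card L) (hP : SylIn s P V)
    (h : ∀ r : ℕ, r.Prime → r ≠ 2 → ∀ R, SylIn r R L → ∃ Y, Y ≤ Cz(R) ∧ L ⊔ Y = V) : P ≤ Cz(L) := by
  have key : ∀ Y, L ⊔ Y = V → ∃ v, P ≤ cj v Y := by
    rintro Y rfl
    obtain ⟨Q, hQ⟩ := exists_sylIn s Y
    obtain ⟨v, -, e⟩ := (hQ.trans le_sup_right fun d => hs (d.trans (relIndex_sup_dvd L Y))).conj hP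
    exact ⟨v, e ▸ cj_mono v hQ.le⟩
  obtain ⟨S, hS⟩ := exists_sylIn 2 L
  obtain ⟨v, hv⟩ := key _ (hS.frattini_sup (H := V) le_normalizer_of_normal hV)
  have hv : P ≤ Nm(cj v S) := cj_normalizer v S ▸ hv.trans (cj_mono v inf_le_right)
  have hS := hS.cj_of_mem_Nm (mem_Nm_of_normal v L)
  have cop : ((cj v S).relIndex L).Coprime ((Cz(P)).relIndex L) := by
    refine Nat.coprime_of_dvd fun r hr d => ?_
    haveI : Fact r.Prime := ⟨hr⟩
    obtain ⟨R, hR⟩ := exists_sylIn r L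
    obtain ⟨Y, y1, y2⟩ := h r hr (by rintro rfl; exact hS.not_dvd_relIndex d) R hR
    obtain ⟨w, hw⟩ := key Y y2
    exact (hR.cj_of_mem_Nm (mem_Nm_of_normal w L)).not_dvd_relIndex_of_le
      (le_centralizer_iff.1 (cj_centralizer w R ▸ hw.trans (cj_mono w y1)))
  have le : ⁅P, L⁆ ≤ cj v S := commutator_le.2 fun g hg l hl => by
    obtain ⟨a, ha, b, hb, rfl⟩ := exists_mul_of_coprime_relIndex cop hl
    have : ⁅g, a * b⁆ = ⁅g, a⁆ := by
      rw [commutatorElement_def, commutatorElement_def, mul_assoc g, mul_assoc a, ← mem_centralizer_iff.1 hb.1 _ (inv_mem hg)]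
      group
    exact this ▸ commutator_mem_right ha.1 (hv hg)
  rw [le_centralizer_iff, ← commutator_eq_bot_iff']
  refine commutator_eq_bot_of_perfect (qs_perfect hL) ?_
  rcases qs_normal hL (N := ⁅P, L⁆) (normalizer_commutator_ge_right P L) with h1 | h1
  · rw [inf_eq_right.2 (le.trans hS.le)] at h1
    rwa [commutator_eq_bot_iff', le_centralizer_iff]
  · exact absurd (h1.trans le) (qs_not_le_of_isPGroup hL hS.pgrp)

theorem rk_top_le (p : ℕ) [Fact p.Prime] (L : Subgroup G) : rk p (⊤ : Subgroup L) ≤ rk p (⊤ : Subgroup G) :=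
  (rk_le_of_iso (K := L) topEquiv).trans (rk_mono le_top)

theorem qs_noncomm {L : Type v} [Group L] (hL : IsQuasisimple L) : ¬ IsMulCommutative (L ⧸ center L) := fun c => by
  haveI : Group.IsSolvable (L ⧸ center L) := Group.isSolvable_of_comm c.1.1
  haveI : Group.IsSolvable (center L) := Group.isSolvable_of_comm fun a b => Subtype.ext (mem_center_iff.1 b.2 a)
  exact quasisimple_not_isSolvable hL (Group.isSolvable_of_ker_le_range (center L).subtype (QuotientGroup.mk' (center L))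
    (by simp))

theorem out_normal (hr : ∀ p : ℕ, p.Prime → p ≠ 2 → rk p (⊤ : Subgroup G) ≤ 2) (hT : KT G) {L : Subgroup G} [L.Normal]
    (hL : IsQuasisimple L) (hZ : Odd (Nat.card (center L))) {W : Subgroup G} (hW : ⁅W, W⁆ = W) : W ≤ L ⊔ Cz(L) := by
  obtain ⟨φ, hφ⟩ := exists_out (qs_perfect hL)
  haveI := hL.2
  have sj := QuotientGroup.mk'_surjective (center L)
  rw [← hφ, ← Subgroup.map_eq_bot_iff]
  refine map_eq_bot_of_perfect hW φ (by_contra fun nW => ?_)
  rcases (hT _ L _ sj (qs_noncomm hL)).1.2.2 with h | h | ⟨h3, ns⟩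
  · exact not_big hZ (fun p a b => by haveI : Fact p.Prime := ⟨a⟩; exact (rk_top_le p L).trans (hr p a b)) h
  · exact nW inferInstance
  have Lk : L.map φ = ⊥ := by rw [Subgroup.map_eq_bot_iff, hφ]; exact le_sup_left
  obtain ⟨V, ⟨LV, nV⟩, -, mn⟩ := exists_minimal_le (fun V => L ≤ V ∧ ¬ Sol (V.map φ)) (A := L ⊔ W)
    ⟨le_sup_left, by rwa [Subgroup.map_sup, Lk, bot_sup_eq]⟩
  have mn' : ∀ Y, Y ≤ V → ¬ Sol (Y.map φ) → L ⊔ Y = V := fun Y a b =>
    mn _ ⟨le_sup_left, by rwa [Subgroup.map_sup, Lk, bot_sup_eq]⟩ (sup_le LV a)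
  have mp : ∀ Y, L ⊔ Y = V → Y.map φ = V.map φ := fun Y e => by rw [← e, Subgroup.map_sup, Lk, bot_sup_eq]
  have pc : ∀ Y, Y ≤ V → ¬ Sol (Y.map φ) → L ⊔ PC Y = V := fun Y a b => mn' _ ((PC_le Y).trans a) fun c => b (by
    rw [← PC_eq_bot_iff, ← map_PC]
    exact map_eq_bot_of_perfect (PC_perfect Y) φ c)
  have pJ : ⁅V.map φ, V.map φ⁆ = V.map φ := by
    rw [← mp _ (pc V le_rfl nV), ← Subgroup.map_commutator, PC_perfect]
  have A : ∀ r : ℕ, r.Prime → r ≠ 2 → ∀ R, SylIn r R L → (r = 3 ∨ ¬ 3 ∣ Nat.card (V.map φ)) →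
      ∃ Y, ⁅Y, Y⁆ = Y ∧ Y ≤ Cz(R) ∧ L ⊔ Y = V := by
    intro r hp h2 R hR h
    haveI : Fact r.Prime := ⟨hp⟩
    have fr := hR.frattini_sup (H := V) le_normalizer_of_normal LV
    have hU := pc _ inf_le_left (by rwa [mp _ fr])
    have UV := PC_le (V ⊓ Nm(R))
    obtain ⟨C, c1, c2, c3, c4, c5⟩ := lemG h2 hR.pgrp ((rk_mono le_top).trans (hr r hp h2)) (UV.trans inf_le_right) (PC_perfect _)
    set U := PC (V ⊓ Nm(R))
    have : ¬ Sol (C.map φ) := fun s => by
      rcases h with h | h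
      · rw [c4 h, mp _ hU] at s; exact nV s
      rcases c5 (C ⊔ U ⊓ φ.ker) le_sup_left (sup_le c1 inf_le_left)
        (CfH7.le_normalizer_sup c2 (CfH7.le_normalizer_inf le_normalizer le_normalizer_of_normal)) with e | ⟨e, d⟩
      · rw [← mp _ hU, ← e, Subgroup.map_sup, (Subgroup.map_eq_bot_iff _).2 inf_le_right, sup_bot_eq] at nV
        exact nV s
      · refine h (d.trans ?_)
        rw [← mp _ hU, ← relIndex_ker, ← inf_relIndex_left U φ.ker]
        exact relIndex_dvd_of_le_left _ (le_sup_right.trans e.le)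
    exact ⟨PC C, PC_perfect C, c3 _ (PC_le C) (PC_perfect C), pc C (c1.trans (UV.trans inf_le_left)) this⟩
  have B : ∀ r : ℕ, r.Prime → r ≠ 2 → PRankAtLeast r 2 (L ⧸ center L) → (r = 3 ∨ ¬ 3 ∣ Nat.card (V.map φ)) →
      ¬ r ∣ Nat.card (V.map φ) := by
    intro r hp h2 a b d
    haveI : Fact r.Prime := ⟨hp⟩
    obtain ⟨R, hR⟩ := exists_sylIn r L
    obtain ⟨Y, y1, y2, y3⟩ := A r hp h2 R hR b
    obtain ⟨E, hE⟩ := exists_el_two h2 hR sj a
    exact not_dvd_of_le_Cz h2 (hr r hp h2) hE y1 (y2.trans (Cz_anti hE.le)) (d.trans (mp _ y3 ▸ card_map_dvd _ _))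
  have n3 := B 3 Nat.prime_three (by omega) h3 (.inl rfl)
  obtain ⟨N, _, _, nc⟩ := exists_simple_quot pJ fun e => nV (e ▸ inferInstance)
  obtain ⟨⟨t1, -⟩, t2⟩ := hT _ V ((QuotientGroup.mk' N).comp (φ.subgroupMap V))
    ((QuotientGroup.mk'_surjective N).comp (φ.subgroupMap_surjective V)) nc
  have dJ := card_quotient_dvd_card N
  obtain ⟨k, k1, k2, k3⟩ := t2 (t1.resolve_left fun h => n3 (h.trans dJ))
  rw [k3] at dJ
  rcases ns with ns | ns
  · refine ns (Dvd.dvd.trans ?_ (dJ.trans (card_subgroup_dvd_card _)))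
    exact (pow_dvd_pow 4 k2).mul_right _
  obtain ⟨r, hp, r1, r2⟩ := ns k k1 k2
  haveI : Fact r.Prime := ⟨hp⟩
  have h2 : r ≠ 2 := by
    rintro rfl
    obtain ⟨j, rfl⟩ : ∃ j, k = j + 1 := ⟨k - 1, by omega⟩
    have := Nat.pos_of_ne_zero (pow_ne_zero j two_ne_zero)
    rw [Nat.prime_two.dvd_mul, pow_succ, pow_succ] at r1
    omega
  have rJ := (r1.mul_left _).trans dJ
  rcases r2 with r2 | r2
  swap
  · exact B r hp h2 r2 (.inr n3) rJ
  have rL : ¬ r ∣ Nat.card L := fun d => by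
    obtain ⟨x, a, b, c⟩ := exists_noncentral h2 (qs_perfect hL) d
    have x1 : ((⟨x, a⟩ : L) : L ⧸ center L) ≠ 1 := fun e =>
      c ((map_center_eq L).le (mem_map_of_mem _ ((QuotientGroup.eq_one_iff _).1 e))).2
    have : orderOf ((⟨x, a⟩ : L) : L ⧸ center L) = r :=
      orderOf_eq_prime (by rw [← QuotientGroup.mk_pow, show (⟨x, a⟩ : L) ^ r = 1 from Subtype.ext b]; rfl) x1
    exact r2 (this ▸ orderOf_dvd_natCard _)
  obtain ⟨P, hP⟩ := exists_sylIn r V
  have := sylow_cent hL LV rL hP fun s a b R hR => (A s a b R hR (.inr n3)).imp fun _ h => h.2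
  refine (hP.map φ).eq_bot_iff.1 ?_ rJ
  rw [Subgroup.map_eq_bot_iff, hφ]
  exact this.trans le_sup_right

theorem out_perfect (hr : ∀ p : ℕ, p.Prime → p ≠ 2 → rk p (⊤ : Subgroup G) ≤ 2) (hT : KT G) {L W : Subgroup G}
    (hL : IsQuasisimple L) (hZ : Odd (Nat.card (center L))) (hW : ⁅W, W⁆ = W) (hn : W ≤ Nm(L)) : W ≤ L ⊔ Cz(L) := by
  have e := subgroupOfEquivOfLe (le_normalizer : L ≤ Nm(L))
  have := out_normal (L := L.subgroupOf Nm(L))
    (fun p a b => by haveI : Fact p.Prime := ⟨a⟩; exact (rk_top_le p _).trans (hr p a b)) (hT.sub Nm(L))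
    ((qs_subgroupOf_iff le_normalizer).2 hL) (by rwa [Nat.card_congr (centerCongr e).toEquiv]) (perfect_subgroupOf hn hW)
  have := map_mono (f := (Nm(L)).subtype) this
  rw [map_subgroupOf_eq_of_le hn, Subgroup.map_sup, map_subtype_Cz, map_subgroupOf_eq_of_le le_normalizer] at this
  exact this.trans (sup_le_sup_left inf_le_right _)

end CfH3.QK
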