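import Cfsg.Agent.H3.QK4
/-! C-components of strongly quasithin K-groups with trivial 2-core. -/
set_option autoImplicit false
set_option linter.unusedSectionVars false
open Subgroup Cfsg Function CfH9 CfH7 CfH8 CfH1 CfFT
open scoped commutatorElement
namespace CfH3.QK
universe u v

variable {G : Type u} [Group G] [Finite G]

theorem cc_comm_sol {L M : Subgroup G} (hL : L ∈ calC G) (hM : M ∈ calC G) (ne : L ≠ M) : L ≤ Nm(M) ∧ Sol ⁅L, M⁆ := by
  obtain ⟨S, _, hS, hF⟩ := exists_radical G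
  have sj := QuotientGroup.mk'_surjective S
  have hk : Sol (QuotientGroup.mk' S).ker := by rwa [QuotientGroup.ker_mk']
  have h := (component_eq_or_commutator_eq_bot (comp_of_cc (cc_map hL sj hk) (le_Cz_of_eq_bot hF))
    (comp_of_cc (cc_map hM sj hk) (le_Cz_of_eq_bot hF))).resolve_left fun e => ne (eq_of_map_eq hL hM hk e)
  constructor
  · rw [Nm_eq_comap hM hk, ← map_le_iff_le_comap]
    exact (le_centralizer_iff.1 (commutator_eq_bot_iff'.1 h)).trans (Cz_le_Nm _)
  · rw [← Subgroup.map_commutator, Subgroup.map_eq_bot_iff] at h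
    exact isSolvable_of_le h hk

theorem le_Cz_fitting {A : Subgroup G} (h : ∀ q : ℕ, q.Prime → A ≤ Cz(pCore q G)) : A ≤ Cz(fittingSubgroup G) := by
  rw [fitting_eq_iSup, le_centralizer_iff]
  exact iSup_le fun q => le_centralizer_iff.1 (h q q.2)

theorem odd_center (h2 : pCore 2 G = ⊥) {L : Subgroup G} (hL : L.IsSubnormal) : Odd (Nat.card (center L)) := by
  have : L ⊓ Cz(L) ≤ fittingSubgroup G := le_fitting_of_subnormal
    ((subnIn_of_normal inf_le_left (le_Nm_Zc L)).isSubnormal hL) (Ab.nil (CfH9.comm_inf_Cz L))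
  rw [← CfH9.card_map_subtype, map_center_eq]
  exact Nat.coprime_two_right.1 (Pp.of_le (coprime_card_fitting_of_pCore_eq_bot h2) this)

variable (h2 : pCore 2 G = ⊥) (hr : ∀ p : ℕ, p.Prime → p ≠ 2 → rk p (⊤ : Subgroup G) ≤ 2)
include h2 hr

theorem cc_cent {L M : Subgroup G} (hL : L ∈ calC G) (hM : M ∈ calC G) (ne : L ≠ M) {p : ℕ} (hp : p.Prime) :
    L ≤ Cz(pCore p G) ∨ M ≤ Cz(pCore p G) := by
  haveI : Fact p.Prime := ⟨hp⟩
  by_cases e : p = 2
  · exact .inl (le_Cz_of_eq_bot (e ▸ h2))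
  obtain ⟨a1, a2⟩ := cc_comm_sol hL hM ne
  obtain ⟨b1, -⟩ := cc_comm_sol hM hL ne.symm
  have pU := perfect_sup hL.2.1 hM.2.1
  obtain ⟨C, c1, c2, c3, -, c5⟩ := lemG e (isPGroup_pCore p G) ((rk_mono le_top).trans (hr p hp e))
    le_normalizer_of_normal pU
  rcases c5 (L ⊔ C) le_sup_right (sup_le le_sup_left c1) (CfH7.le_normalizer_sup (sup_le le_normalizer b1) c2) with x | ⟨x, -⟩
  swap
  · exact .inl (c3 L (le_sup_left.trans x.le) hL.2.1)
  rcases c5 (M ⊔ C) le_sup_right (sup_le le_sup_right c1) (CfH7.le_normalizer_sup (sup_le a1 le_normalizer) c2) with y | ⟨y, -⟩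
  swap
  · exact .inr (c3 M (le_sup_left.trans y.le) hM.2.1)
  have LC := le_sup_left.trans c2
  have MC := le_sup_right.trans c2
  refine .inl (c3 L (le_sup_left.trans (?_ : L ⊔ M ≤ C)) hL.2.1)
  rw [← qb_eq_bot_iff c2]
  refine eq_bot_of_perfect_of_isSolvable (by rw [← qb_commutator c2 c2, pU]) ?_
  have : qb C (L ⊔ M) = qb C ⁅L, M⁆ := by
    rw [qb_commutator LC MC, ← qb_sup_self LC, ← qb_sup_self MC, x, y, ← qb_commutator c2 c2, pU]
  exact this ▸ sol_qb a2

theorem cc_comm {L M : Subgroup G} (hL : L ∈ calC G) (hM : M ∈ calC G) (ne : L ≠ M) : ⁅L, M⁆ = ⊥ := by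
  obtain ⟨a1, a2⟩ := cc_comm_sol hL hM ne
  obtain ⟨b1, -⟩ := cc_comm_sol hM hL ne.symm
  have dL : ⁅L, M⁆ ≤ L := le_normalizer_iff_commutator_le_left.1 b1
  have dM : ⁅L, M⁆ ≤ M := le_normalizer_iff_commutator_le_right.1 a1
  have dF : ⁅L, M⁆ ≤ fittingSubgroup G := by
    refine (le_fitting_or_exists_component ((subnIn_of_normal dL (normalizer_commutator_ge_left L M)).isSubnormal hL.2.2.1)
      (le_Cz_fitting fun q hq => (cc_cent h2 hr hL hM ne hq).elim dL.trans dM.trans)).resolve_right ?_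
    exact fun ⟨K, k1, k2⟩ => qs_not_le_of_isSolvable k1.2 a2 k2
  have key : ∀ (q : ℕ) [Fact q.Prime] (A B : Subgroup G), ⁅B, B⁆ = B → ⁅A, B⁆ ≤ fittingSubgroup G → B ≤ Cz(pCore q G) →
      ⁅A, B⁆ ≤ pPrimeCore q G := by
    intro q _ A B x y z
    rw [← QuotientGroup.ker_mk' (pPrimeCore q G), ← Subgroup.map_eq_bot_iff, Subgroup.map_commutator]
    refine commutator_eq_bot_of_perfect (by rw [← Subgroup.map_commutator, x]) ?_
    rw [← Subgroup.map_commutator, ← Subgroup.map_commutator, Subgroup.map_eq_bot_iff, QuotientGroup.ker_mk']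
    refine (commutator_mono (y.trans (fitting_le_pCore_sup_pPrimeCore (p := q))) le_rfl).trans
      (commutator_sup_le_of_normal ?_ (commutator_le_left _ _))
    rw [commutator_eq_bot_iff'.2 z]
    exact bot_le
  by_contra n
  obtain ⟨q, hq, d⟩ := exists_prime_dvd_card n
  haveI : Fact q.Prime := ⟨hq⟩
  refine Pp.not_dvd (Pp.of_le (coprime_card_pPrimeCore q G) ?_) d
  rcases cc_cent h2 hr hL hM ne hq with h | h
  · rw [Subgroup.commutator_comm] at dF ⊢
    exact key q M L hL.2.1 dF h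
  · exact key q L M hM.2.1 dF h

theorem cc_nonnormal (hT : KT G) {L : Subgroup G} (hL : L ∈ calC G) (hn : ¬ L.Normal) : (Nm(L)).index = 2 ∧ Lst L := by
  obtain ⟨g, hg⟩ : ∃ g, g ∉ Nm(L) := by
    by_contra h
    push Not at h
    exact hn (normal_of_forall_mem_Nm h)
  have ne : ∀ {a : G}, a ∉ Nm(L) → L ≠ cj a L := fun h e => h (mem_normalizer_iff_cj.2 e.symm)
  have cL : IsComponent L := comp_of_cc hL (le_Cz_fitting fun q hq => (cc_cent h2 hr hL (cc_cj hL g) (ne hg) hq).elim id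
    fun h => by rwa [← cj_normal g (pCore q G), ← cj_centralizer, cj_le_cj_iff] at h)
  have step : ∀ (p : ℕ) [Fact p.Prime] (n : ℕ) (E M : Subgroup G) (a : G), p ≠ 2 → p ∣ Nat.card L → El p n E M →
      ⁅cj a L, M⁆ = ⊥ → ∃ E', El p (n + 1) E' (M ⊔ cj a L) := by
    intro p _ n E M a b c d e
    obtain ⟨x, x1, x2, x3⟩ := exists_noncentral b (cc_cj hL a).2.1 (by rwa [card_cj])
    have e' := d.le.trans (commutator_eq_bot_iff'.1 e)
    exact ⟨_, (d.of_le le_sup_left).sup_zpowers (mem_sup_right x1) x2 (le_centralizer_iff.1 e' x1) fun h => x3 (e' h)⟩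
  have r1 : ∀ (p : ℕ) [Fact p.Prime], p ≠ 2 → ∀ E, ¬ El p 2 E L := fun p hp b E d => by
    obtain ⟨E', h⟩ := step p 2 E L g b d.dvd d (cc_comm h2 hr (cc_cj hL g) hL (ne hg).symm)
    have := (h.of_le le_top).le_rk.trans (hr p hp.out b)
    omega
  have Z : center L = ⊥ := by
    by_contra n
    obtain ⟨p, hp, d⟩ := exists_prime_dvd_card n
    haveI : Fact p.Prime := ⟨hp⟩
    have b := OddS.ne_two (odd_center h2 hL.2.2.1) d
    obtain ⟨x, x1, x2, x3⟩ := exists_noncentral b hL.2.1 (d.trans (card_subgroup_dvd_card _))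
    rw [← CfH9.card_map_subtype, map_center_eq] at d
    obtain ⟨X, hX⟩ := exists_el_one d
    exact r1 p b _ ((hX.of_le inf_le_left).sup_zpowers x1 x2 (le_centralizer_iff.1 (hX.le.trans inf_le_right) x1)
      fun h => x3 (hX.le h).2)
  haveI := quasisimple_nontrivial cL.2
  haveI : IsSimpleGroup L := ⟨fun N hN => (quasisimple_subnormal cL.2 hN.isSubnormal).imp_left fun h => by
    rwa [Z, le_bot_iff] at h⟩
  refine ⟨index_eq_two_iff_exists_notMem_and.2 ⟨g, hg, fun b => by_contra fun h => ?_⟩, ?_⟩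
  · rw [not_or] at h
    obtain ⟨p, hp, b2, d⟩ : ∃ p : ℕ, p.Prime ∧ p ≠ 2 ∧ p ∣ Nat.card L := by
      by_contra n
      push Not at n
      refine cc_not_sol hL (sol_of_isPGroup (p := 2) (IsPGroup.of_card
        (Nat.eq_prime_pow_of_unique_prime_dvd Nat.card_pos.ne' fun {q} a c => by_contra fun e => n q a e c)))
    haveI : Fact p.Prime := ⟨hp⟩
    obtain ⟨X, hX⟩ := exists_el_one d
    obtain ⟨E, hE⟩ := step p 1 X L g b2 d hX (cc_comm h2 hr (cc_cj hL g) hL (ne hg).symm)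
    obtain ⟨E', h'⟩ := step p 2 E _ b⁻¹ b2 d hE (by
      rw [commutator_eq_bot_iff', sup_le_iff, ← commutator_eq_bot_iff', ← commutator_eq_bot_iff']
      refine ⟨cc_comm h2 hr (cc_cj hL _) hL (ne fun e => h.2 (inv_mem_iff.1 e)).symm,
        cc_comm h2 hr (cc_cj hL _) (cc_cj hL _) fun e => ne h.1 ?_⟩
      rw [cj_mul, ← e, cj_cj_inv])
    have := (h'.of_le le_top).le_rk.trans (hr p hp b2)
    omega
  · refine (hT L L (MonoidHom.id L) surjective_id fun c => cc_not_sol hL (Nil.sol (Ab.nil c))).1.2.1.resolve_right ?_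
    rintro ⟨p, hp, b, h⟩
    haveI : Fact p.Prime := ⟨hp⟩
    obtain ⟨E, hE⟩ := exists_el_of_le_rk ((le_rk_of_rank h).trans (rk_le_of_iso (K := L) topEquiv))
    exact r1 p b E hE

theorem core_le (hT : KT G) : perfectCore G ≤ sSup (calC G) := by
  obtain ⟨S, _, hS, hF⟩ := exists_radical G
  have sj := QuotientGroup.mk'_surjective S
  have hk : Sol (QuotientGroup.mk' S).ker := by rwa [QuotientGroup.ker_mk']
  refine core_le_of_map sj hk (core_le_of_forall hF fun L' hL' => ?_)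
  obtain ⟨hL, e⟩ := cc_comap hL' sj hk
  generalize PC (L'.comap (QuotientGroup.mk' S)) = L at hL e
  subst e
  have pW : ⁅perfectCore G, perfectCore G⁆ = perfectCore G := perfect_sSup fun _ h => h
  have LW : L ≤ perfectCore G := le_sSup hL.2.1
  rw [← PC_top, ← map_top_of_surjective _ sj, ← map_PC, PC_top]
  have WN : perfectCore G ≤ Nm(L) := by
    by_cases n : L.Normal
    · exact le_normalizer_of_normal
    have i := (cc_nonnormal h2 hr hT hL n).1
    rw [← pW]
    refine commutator_le.2 fun a _ b _ => ?_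
    rw [commutatorElement_def, mul_assoc (a * b), mul_mem_iff_of_index_two i, mul_mem_iff_of_index_two i,
      mul_mem_iff_of_index_two i, inv_mem_iff, inv_mem_iff]
  by_cases c : ∀ q : ℕ, q.Prime → L ≤ Cz(pCore q G)
  · refine (map_mono (out_perfect hr hT (comp_of_cc hL (le_Cz_fitting c)).2 (odd_center h2 hL.2.2.1) pW WN)).trans ?_
    rw [Subgroup.map_sup]
    exact sup_le_sup_left (map_Cz_le _ _) _
  push Not at c
  obtain ⟨p, hp, c⟩ := c
  haveI : Fact p.Prime := ⟨hp⟩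
  have e : p ≠ 2 := fun e => c (le_Cz_of_eq_bot (e ▸ h2))
  obtain ⟨C, c1, c2, c3, -, c5⟩ := lemG e (isPGroup_pCore p G) ((rk_mono le_top).trans (hr p hp e))
    le_normalizer_of_normal pW
  have n : ¬ L ≤ C := fun h => c (c3 L h hL.2.1)
  rcases c5 (L ⊔ C) le_sup_right (sup_le LW c1) (CfH7.le_normalizer_sup WN c2) with x | ⟨x, -⟩
  swap
  · exact absurd (le_sup_left.trans x.le) n
  rw [← x, Subgroup.map_sup]
  refine sup_le_sup_left ?_ _
  rw [← commutator_eq_bot_iff', ← Subgroup.map_commutator]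
  have s := (subnIn_of_normal (inf_le_left : L ⊓ C ≤ L)
    (CfH7.le_normalizer_inf le_normalizer (LW.trans c2))).isSubnormal hL.2.2.1
  have := eq_bot_of_sol hF (s.map sj) (isSolvable_map _ (cc_sol hL s (inf_lt_left.2 n)))
  rw [← le_bot_iff, ← this]
  exact map_mono (le_inf (le_normalizer_iff_commutator_le_left.1 (c1.trans WN))
    (le_normalizer_iff_commutator_le_right.1 (LW.trans c2)))

end CfH3.QK
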