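import Cfsg.Agent.H3.QK5
/-! C-components of subgroups with nontrivial 2-core, from the facts on the known simple groups. -/
set_option autoImplicit false
set_option linter.unusedSectionVars false
open Subgroup Cfsg Function CfH9 CfH7 CfH8 CfH1 CfFT
open scoped commutatorElement
namespace CfH3.QK
universe u v

/-- the facts needed on the known simple groups -/
def Known : Prop := ∀ (J : Type u) [Group J] [Finite J] [IsSimpleGroup J], ¬ IsMulCommutative J → IsKnownSimple' J →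
    T J ∧ (Lie.IsoSuzuki J → ∃ k, Odd k ∧ 3 ≤ k ∧ Nat.card J = 4 ^ k * ((4 ^ k + 1) * (2 ^ k - 1)))

theorem Lst.equiv {K : Type u} [Group K] {L : Type v} [Group L] (e : K ≃* L) (h : Lst L) : Lst K := by
  rcases h with ⟨F, a, b, d, ⟨f⟩⟩ | ⟨F, a, b, m, h1, h2, ⟨f⟩⟩ | ⟨F, a, b, d, d', ⟨f⟩⟩ | ⟨⟨f⟩⟩
  · exact .inl ⟨F, a, b, d, ⟨e.trans f⟩⟩
  · exact .inr (.inl ⟨F, a, b, m, h1, h2, ⟨e.trans f⟩⟩)
  · exact .inr (.inr (.inl ⟨F, a, b, d, d', ⟨e.trans f⟩⟩))
  · exact .inr (.inr (.inr ⟨e.trans f⟩))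

variable {G : Type u} [Group G] [Finite G]

theorem kt_of (hk : Known.{u}) (h : IsKGroup G) : KT G := by
  intro J _ _ _ H f hf nc
  have e := QuotientGroup.quotientKerEquivOfSurjective f hf
  haveI := e.isSimpleGroup
  have nc' : ¬ IsMulCommutative (H ⧸ f.ker) := fun c => nc ⟨⟨fun a b => by
    rw [← e.apply_symm_apply a, ← e.apply_symm_apply b, ← map_mul, c.1.1, map_mul]⟩⟩
  obtain ⟨a, b⟩ := hk _ nc' (h H f.ker inferInstance nc')
  refine ⟨a.equiv e.symm, fun ⟨F, x, y, m, h1, h2, ⟨g⟩⟩ => ?_⟩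
  rw [← Nat.card_congr e.toEquiv]
  exact b ⟨F, x, y, m, h1, h2, ⟨e.trans g⟩⟩

theorem rk_quot {p : ℕ} [Fact p.Prime] {N : Subgroup G} [N.Normal] (hN : Pp p N) :
    rk p (⊤ : Subgroup (G ⧸ N)) ≤ rk p (⊤ : Subgroup G) := by
  obtain ⟨P, hP⟩ := exists_sylIn p (⊤ : Subgroup G)
  rw [← rk_sylIn hP, ← rk_sylIn (hP.map_surj (QuotientGroup.mk'_surjective N))]
  refine rk_le_of_iso (MulEquiv.ofBijective ((QuotientGroup.mk' N).subgroupMap P)
    ⟨(injective_iff_map_eq_one _).2 fun x hx => ?_, MonoidHom.subgroupMap_surjective _ _⟩).symm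
  have : (x : G) ∈ N ⊓ P := ⟨(QuotientGroup.eq_one_iff _).1 (congrArg Subtype.val hx), x.2⟩
  rw [hN.inf_eq_bot hP.pgrp] at this
  exact Subtype.ext this

theorem main_aux (hr : ∀ p : ℕ, p.Prime → p ≠ 2 → rk p (⊤ : Subgroup G) ≤ 2) (hT : KT G) :
    sSup (calC G) = perfectCore G ∧
    (∀ L₁ ∈ calC G, ∀ L₂ ∈ calC G, L₁ ≠ L₂ →
        ⁅L₁, L₂⁆ ≤ (pCore 2 L₁).map L₁.subtype ⊓ (pCore 2 L₂).map L₂.subtype ∧
        (pCore 2 L₁).map L₁.subtype ⊓ (pCore 2 L₂).map L₂.subtype ≤ pCore 2 G) ∧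
    (∀ L ∈ calC G, L.Normal ∨ ((Nm(L)).index = 2 ∧ Lst (L ⧸ pCore 2 L))) := by
  have sj := QuotientGroup.mk'_surjective (pCore 2 G)
  have hk : Sol (QuotientGroup.mk' (pCore 2 G)).ker := by
    rw [QuotientGroup.ker_mk']; exact sol_of_isPGroup (isPGroup_pCore 2 G)
  have h2 := pCore_quotient_pCore 2 G
  have hr' : ∀ p : ℕ, p.Prime → p ≠ 2 → rk p (⊤ : Subgroup (G ⧸ pCore 2 G)) ≤ 2 := fun p a b => by
    haveI : Fact p.Prime := ⟨a⟩
    exact (rk_quot (pp_of_isPGroup b.symm (isPGroup_pCore 2 G))).trans (hr p a b)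
  have hT' := hT.quot sj
  have pc : ∀ L ∈ calC G, (pCore 2 L).map L.subtype = L ⊓ pCore 2 G := fun L hL => pCoreOf_eq_inf_of_subnormal hL.2.2.1
  refine ⟨le_antisymm (sSup_le fun L hL => le_sSup hL.2.1) (core_le_of_map sj hk (core_le h2 hr' hT')),
    fun L hL M hM ne => ?_, fun L hL => ?_⟩
  · rw [pc L hL, pc M hM]
    have := cc_comm h2 hr' (cc_map hL sj hk) (cc_map hM sj hk) fun e => ne (eq_of_map_eq hL hM hk e)
    rw [← Subgroup.map_commutator, Subgroup.map_eq_bot_iff, QuotientGroup.ker_mk'] at this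
    exact ⟨le_inf (le_inf (le_normalizer_iff_commutator_le_left.1 (cc_comm_sol hM hL ne.symm).1) this)
      (le_inf (le_normalizer_iff_commutator_le_right.1 (cc_comm_sol hL hM ne).1) this), inf_le_left.trans inf_le_right⟩
  · refine or_iff_not_imp_left.2 fun n => ?_
    obtain ⟨a, b⟩ := cc_nonnormal h2 hr' hT' (cc_map hL sj hk) fun h => n (normal_of_forall_mem_Nm fun g => by
      rw [Nm_eq_comap hL hk]; exact mem_Nm_of_normal _ _)
    refine ⟨by rw [Nm_eq_comap hL hk, index_comap_of_surjective _ sj, a], Lst.equiv ?_ b⟩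
    refine (QuotientGroup.quotientMulEquivOfEq ?_).trans
      (QuotientGroup.quotientKerEquivOfSurjective _ ((QuotientGroup.mk' (pCore 2 G)).subgroupMap_surjective L))
    ext x
    have : x ∈ pCore 2 L ↔ (x : G) ∈ pCore 2 G := by
      rw [← mem_map_iff_mem L.subtype_injective, pc L hL]
      exact ⟨fun h => h.2, fun h => ⟨x.2, h⟩⟩
    rw [this, MonoidHom.mem_ker, Subtype.ext_iff]
    exact (QuotientGroup.eq_one_iff _).symm

theorem hyps [IsSimpleGroup G] (hG : ¬ IsMulCommutative G) (hQ : IsQTKE G) {H : Subgroup G} (hH : H ∈ calH G) :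
    (∀ p : ℕ, p.Prime → p ≠ 2 → rk p (⊤ : Subgroup H) ≤ 2) ∧ IsKGroup H := by
  have ne : pCoreOf 2 H ≠ ⊥ := fun h => hH (pCoreOf_eq_bot_iff.1 h)
  refine ⟨fun p a b => ?_, hQ.2.1 H ?_⟩
  · haveI : Fact p.Prime := ⟨a⟩
    exact (rk_le_of_iso (K := H) topEquiv).trans ((rk_mono (le_normalizer_pCoreOf H)).trans
      (prankLE_iff.1 (hQ.1 p a b _ ⟨_, isPGroup_pCoreOf H, ne, rfl⟩)))
  · rintro rfl
    rw [pCoreOf_top] at ne
    have := (IsSimpleGroup.eq_bot_or_eq_top_of_normal (pCore 2 G) inferInstance).resolve_left ne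
    haveI := (pCore_eq_top_iff.1 this).isNilpotent
    exact quasisimple_not_isSolvable (isQuasisimple_of_isSimpleGroup hG) inferInstance

end CfH3.QK
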